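import Cfsg.Agent.SL2.Basic
import Cfsg.Agent.Stein.SL2Pres

/-!
Factorisations of unimodular `2 × 2` matrices with prescribed invariants.
-/

set_option autoImplicit false
set_option linter.unusedSimpArgs false
set_option linter.unusedVariables false

namespace Cfsg.Agent.Chev

open Matrix SL2 Stein Polynomial
open scoped MatrixGroups

variable {k : Type*} [Field k]

/-- `M` is a product of two matrices with prescribed determinants and traces -/
def Fac (d t d' t' : k) (M : M2 k) : Prop :=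
  ∃ P P' : M2 k, M = P * P' ∧ P.det = d ∧ P.trace = t ∧ P'.det = d' ∧ P'.trace = t'

theorem Fac.of_comp {d t d' t' : k} {M : M2 k} (hM : ¬ IsScal M) (h : Fac d t d' t' (comp M.trace M.det)) :
    Fac d t d' t' M := by
  obtain ⟨x, y, h1⟩ := exists_Q_ne_zero hM
  rw [← det_cyc] at h1
  obtain ⟨P, P', e, h2, h3, h4, h5⟩ := h
  have h6 := mul_cyc M x y
  have h7 := isUnit_iff_ne_zero.2 h1
  have k1 : ∀ Z : M2 k, (cyc M x y * Z * (cyc M x y)⁻¹).det = Z.det := fun Z => by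
    rw [det_mul, det_mul, det_nonsing_inv, Ring.inverse_eq_inv']; field_simp
  have k2 : ∀ Z : M2 k, (cyc M x y * Z * (cyc M x y)⁻¹).trace = Z.trace := fun Z => by
    rw [trace_mul_cycle, nonsing_inv_mul _ h7, one_mul]
  refine ⟨cyc M x y * P * (cyc M x y)⁻¹, cyc M x y * P' * (cyc M x y)⁻¹, ?_, by rw [k1, h2], by rw [k2, h3],
    by rw [k1, h4], by rw [k2, h5]⟩
  rw [mul_assoc, mul_assoc, ← mul_assoc _⁻¹, ← mul_assoc _⁻¹, nonsing_inv_mul _ h7, one_mul, ← mul_assoc P, ← e,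
    ← mul_assoc, ← h6, mul_assoc, mul_nonsing_inv _ h7, mul_one]

theorem fac_comp {d t t' m p s : k} (hd : d ≠ 0) (h : p * (t - p) - (s + p * m - d * t') * s = d) :
    Fac d t d⁻¹ t' (comp m 1) := by
  refine ⟨!![p, s + p * m - d * t'; s, t - p], d⁻¹ • (!![t - p, -(s + p * m - d * t'); -s, p] * comp m 1), ?_, ?_, ?_,
    ?_, ?_⟩
  · ext i j; fin_cases i <;> fin_cases j <;> simp [SL2.comp, mul_apply, Fin.sum_univ_two] <;> field_simp <;>
      first | ring1 | linear_combination h | linear_combination -h | linear_combination (-m) * h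
  · rw [det_fin_two_of, h]
  · simp
  · rw [det_smul, det_mul, det_comp, det_fin_two_of]
    simp only [Fintype.card_fin]
    field_simp
    linear_combination h
  · simp [SL2.comp]; field_simp; ring

theorem fac_odd [Finite k] (h2 : (2 : k) ≠ 0) (M : SL(2, k)) :
    Fac (-1) 2 (-1)⁻¹ (2 * (-1)⁻¹) M.1 ∨ Fac (-1) 2 (-1) 2 M.1 := by
  have h0 : (-1 : k)⁻¹ = -1 := by simp
  by_cases hM : IsScal M.1
  · rcases sl_isScal_iff.1 hM with rfl | rfl
    · exact Or.inl ⟨!![0, 1; 1, 2], !![-2, 1; 1, 0], by ext i j; fin_cases i <;> fin_cases j <;> simp,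
        by simp [det_fin_two], by simp, by simp [det_fin_two], by simp⟩
    · exact Or.inr ⟨!![0, 1; 1, 2], !![2, -1; -1, 0], by ext i j; fin_cases i <;> fin_cases j <;> simp,
        by simp [det_fin_two], by simp, by simp [det_fin_two], by simp⟩
  have h4 : (4 : k) ≠ 0 := by rw [show (4 : k) = 2 * 2 by norm_num]; exact mul_ne_zero h2 h2
  obtain ⟨m, hm⟩ : ∃ m, m = M.1.trace := ⟨_, rfl⟩
  have h1 : ∀ e, (∃ p s : k, p * (2 - p) - (s + p * m + e) * s = -1) → Fac (-1) 2 (-1)⁻¹ e M.1 := by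
    rintro e ⟨p, s, h⟩
    refine Fac.of_comp hM ?_
    rw [M.2, ← hm]
    exact fac_comp (p := p) (s := s) (by simp) (by linear_combination h)
  by_cases h5 : m = 2
  · exact Or.inr (by simpa using h1 2 ⟨-4⁻¹, 4⁻¹, by rw [h5]; field_simp; ring⟩)
  by_cases h6 : m = -2
  · exact Or.inl (h1 _ ⟨-4⁻¹, -4⁻¹, by rw [h6, h0]; field_simp; ring⟩)
  have h7 : 1 - m ^ 2 / 4 ≠ 0 := fun h => by
    have : (m - 2) * (m + 2) = 0 := by field_simp at h; linear_combination -h
    rcases mul_eq_zero.1 this with h | h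
    · exact h5 (sub_eq_zero.1 h)
    · exact h6 (eq_neg_of_add_eq_zero_left h)
  cases nonempty_fintype k
  obtain ⟨a, b, h8⟩ := FiniteField.exists_root_sum_quadratic (R := k) (f := X ^ 2) (degree_X_pow 2)
    (degree_quadratic (b := m + 2) (c := -2) h7) (FiniteField.odd_card_of_char_ne_two fun h => h2 (by
      have := ringChar.Nat.cast_ringChar (R := k)
      rwa [h] at this))
  simp only [eval_add, eval_mul, eval_pow, eval_X, eval_C] at h8
  exact Or.inr (by simpa using h1 2 ⟨a + 1 - m * b / 2, b, by field_simp at h8 ⊢; linear_combination -h8⟩)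

theorem exists_sq_of_two [Finite k] (h2 : (2 : k) = 0) (c : k) : ∃ s, s ^ 2 = c :=
  Finite.surjective_of_injective (f := fun s : k => s ^ 2) (fun a b (h : a ^ 2 = b ^ 2) => by
    have : (a - b) ^ 2 = 0 := by linear_combination h + (b ^ 2 - a * b) * h2
    exact sub_eq_zero.1 (pow_eq_zero_iff two_ne_zero |>.1 this)) c

theorem fac_even [Finite k] (h2 : (2 : k) = 0) {d : k} (hd : d ≠ 0) (t : k) {M : SL(2, k)}
    (h : M = 1 ∨ M.1.trace ≠ 0) : Fac d t d⁻¹ (t * d⁻¹) M.1 := by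
  rcases h with rfl | h
  · exact ⟨!![0, -d; 1, t], !![t * d⁻¹, 1; -d⁻¹, 0], by ext i j; fin_cases i <;> fin_cases j <;> simp [hd] ,
      by simp [det_fin_two], by simp, by simp [det_fin_two], by simp⟩
  refine Fac.of_comp (fun h1 => h ?_) ?_
  · rw [trace_fin_two, h1.2.2, ← two_mul, h2, zero_mul]
  rw [M.2]
  obtain ⟨m, hm⟩ : ∃ m, m = M.1.trace := ⟨_, rfl⟩
  rw [← hm] at h ⊢
  obtain ⟨p, hp⟩ := exists_sq_of_two h2 ((t / m) ^ 2 + t * (t / m) + d)
  refine fac_comp (p := p) (s := t / m) hd ?_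
  rw [mul_left_comm d, mul_inv_cancel₀ hd, mul_one]
  have : m * (t / m) = t := by field_simp
  linear_combination -hp - p * this - ((t / m) ^ 2 + d) * h2

theorem exists_trace (h2 : (2 : k) = 0) (A B : SL(2, k)) :
    ∃ c, A * sl2X k c * B = 1 ∨ (A * sl2X k c * B).1.trace ≠ 0 := by
  have h1 : ∀ c, (A * sl2X k c * B).1.trace = (B * A).1 0 0 + c * (B * A).1 1 0 + (B * A).1 1 1 := fun c => by
    rw [show A * sl2X k c * B = A * (sl2X k c * (B * A)) * A⁻¹ by group, sl_trace_conj, trace_fin_two, sl_mul_val]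
    simp [sl2X, mul_ap]
  generalize hN : B * A = N at h1
  by_cases h3 : N.1 1 0 = 0
  · by_cases h4 : N.1 0 0 + N.1 1 1 = 0
    · have h5 := sl_det N
      have h6 : N.1 1 1 = 1 := by
        have : (N.1 1 1 - 1) ^ 2 = 0 := by
          rw [h3] at h5
          linear_combination N.1 1 1 * h4 - h5 + (- N.1 1 1) * h2
        exact sub_eq_zero.1 (pow_eq_zero_iff two_ne_zero |>.1 this)
      have h7 : N.1 0 0 = 1 := by linear_combination h4 - h6 - h2
      refine ⟨-N.1 0 1, Or.inl ?_⟩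
      rw [show A * sl2X k (-N.1 0 1) * B = A * (sl2X k (-N.1 0 1) * (B * A)) * A⁻¹ by group, conj_eq_one_iff, hN]
      refine sl_ext ?_
      rw [sl_mul_val]
      exact m2_ext (by simp [sl2X, mul_ap, h3, h7]) (by simp [sl2X, mul_ap, h6]) (by simp [sl2X, mul_ap, h3])
        (by simp [sl2X, mul_ap, h6])
    · exact ⟨0, Or.inr (by rw [h1]; simpa using h4)⟩
  · exact ⟨(1 - N.1 0 0 - N.1 1 1) / N.1 1 0, Or.inr (by
      rw [h1, div_mul_cancel₀ _ h3]; ring_nf; exact one_ne_zero)⟩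

theorem not_isScal_of_disc {P : M2 k} (h : P.trace ^ 2 ≠ 4 * P.det) : ¬ IsScal P := fun h1 => h (by
  rw [trace_fin_two, det_fin_two, h1.1, h1.2.2]; ring)

theorem exists_conj_of_disc {P P' : M2 k} (h : P.trace ^ 2 ≠ 4 * P.det) (hd : P'.det = P.det)
    (ht : P'.trace = P.trace) : ∃ Z : M2 k, Z.det ≠ 0 ∧ Z * P = P' * Z := by
  obtain ⟨x, y, h1⟩ := exists_Q_ne_zero (not_isScal_of_disc h)
  obtain ⟨x', y', h2⟩ := exists_Q_ne_zero (not_isScal_of_disc (P := P') (by rwa [hd, ht]))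
  obtain ⟨Z, h3, h4⟩ := exists_conj_of_Q (x' := x') (y' := y') ht.symm hd.symm h1
  exact ⟨Z, by rw [h3]; exact div_ne_zero h2 h1, h4⟩

theorem exists_pow_of_disc [Finite k] (p : ℕ) [Fact p.Prime] [CharP k p] {P : M2 k} (h : P.trace ^ 2 ≠ 4 * P.det)
    (hd : P.det ≠ 0) : ∃ m, ¬ p ∣ m ∧ P ^ m = 1 := by
  have hp : p.Prime := Fact.out
  obtain ⟨e, m, hm, h1⟩ := Nat.exists_eq_pow_mul_and_not_dvd (orderOf_pos (mkGL P hd)).ne' p hp.ne_one
  have h2 : (P ^ m) ^ p ^ e = 1 := by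
    have := congrArg Units.val (pow_orderOf_eq_one (mkGL P hd))
    rwa [h1, mul_comm, pow_mul, Units.val_pow_eq_pow_val, Units.val_pow_eq_pow_val] at this
  have h3 : IsNilpotent (P ^ m - 1) :=
    ⟨p ^ e, by rw [sub_pow_char_pow_of_commute _ _ (Commute.one_right _), h2, one_pow, sub_self]⟩
  obtain ⟨a, b, h4⟩ := exists_of_comm (g := P ^ m - 1) (not_isScal_of_disc h) (by
    rw [sub_mul, mul_sub, pow_mul_comm', one_mul, mul_one])
  have h5 := (Matrix.isNilpotent_trace_of_isNilpotent h3).eq_zero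
  have h6 : (P ^ m - 1).det = 0 := by
    obtain ⟨n, hn⟩ := h3
    exact pow_eq_zero_iff'.1 (by rw [← det_pow, hn, det_zero]) |>.1
  rw [h4, trace_comb] at h5
  rw [h4, det_comb] at h6
  have h7 : b = 0 := by
    have : b ^ 2 * (P.trace ^ 2 - 4 * P.det) = 0 := by linear_combination (2 * a + b * P.trace) * h5 - 4 * h6
    exact pow_eq_zero_iff two_ne_zero |>.1 ((mul_eq_zero.1 this).resolve_right (sub_ne_zero.2 h))
  have h8 : a = 0 := by rw [h7] at h6; simpa using h6
  exact ⟨m, hm, by rwa [h7, h8, zero_smul, zero_smul, add_zero, sub_eq_zero] at h4⟩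

end Cfsg.Agent.Chev
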