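import Cfsg.Agent.Chev.Gauss1
import Cfsg.Agent.Chev.Gauss2

/-!
Parabolic subgroups whose Levi factor belongs to a single long root: squares of semisimple classes.
-/

set_option autoImplicit false
set_option linter.unusedSimpArgs false
set_option linter.unusedVariables false

namespace Cfsg.Agent.Chev

open Cfsg.Lie Cfsg.Lie.ChevalleyDatum Equiv Tw SL2 Stein
open scoped MatrixGroups

attribute [-simp] zsmul_eq_mul nsmul_eq_mul

variable {D : ChevalleyDatum} {C : Cert D} {F : Type*} [Field F] {G : Type*} [Group G]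

namespace Sys

theorem eq_one_of_levels (S : Sys C F G) {f : (Nd D → ℤ) →ₗ[ℤ] ℤ} {u : G} (hu : u ∈ S.U {s | 1 ≤ f (C.rc s)})
    (h : ∀ k, 0 < k → u ∈ S.U {s | k ≤ f (C.rc s)} → ∀ r, f (C.rc r) = k → S.cd r u = 0) : u = 1 := by
  have key : ∀ n : ℕ, u ∈ S.U {s | (n : ℤ) + 1 ≤ f (C.rc s)} := by
    intro n
    induction n with
    | zero => simpa using hu
    | succ n ih =>
      refine peel (k := n + 1) (by omega) (Cert.closed_ge f (by omega)) (Cert.nil_of_fun f fun r hr => ?_)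
        (fun _ h => h) ih fun r hr => ?_
      · rw [Set.mem_ofPred_eq] at hr; omega
      rw [Set.mem_ofPred_eq] at hr ⊢
      by_cases h3 : f (C.rc r) = n + 1
      · exact Or.inr ⟨by omega, h _ (by omega) ih r h3⟩
      · exact Or.inl (by omega)
  obtain ⟨N, hN⟩ := (Set.finite_range fun r => f (C.rc r)).bddAbove
  rw [← Subgroup.mem_bot, ← S.U_empty]
  refine S.U_mono (fun r hr => ?_) (key N.toNat)
  have : f (C.rc r) ≤ N := hN ⟨r, rfl⟩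
  rw [Set.mem_ofPred_eq] at hr
  omega

variable (S : Sys C F G) {b : Rt D} (hb : ∀ u, C.len u ≤ C.len b) {f : (Nd D → ℤ) →ₗ[ℤ] ℤ} (h0 : f (C.rc b) = 0)
include hb h0

omit S in
theorem A_lng {s : Rt D} (hs : 0 < f (C.rc s)) : -1 ≤ C.A b s ∧ C.A b s ≤ 1 :=
  C.A_abs_le_one (by rintro rfl; omega) (by rintro rfl; rw [C.rc_neg, map_neg] at hs; omega) (hb s)

theorem mem_fine {k : ℤ} (hk : 0 < k) {u : G} (hu : u ∈ S.U {s | k ≤ f (C.rc s)}) :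
    u ∈ S.U {s | 4 * k - 1 ≤ ((4 : ℤ) • f + C.prL b) (C.rc s)} := S.U_mono (fun s hs => by
  have h1 : k ≤ f (C.rc s) := hs
  have := (A_lng hb h0 (s := s) (by omega)).1
  simp only [Set.mem_ofPred_eq, LinearMap.add_apply, LinearMap.smul_apply, smul_eq_mul, C.prL_rc]
  omega) hu

theorem cd_conj_lng {k : ℤ} (hk : 0 < k) {u : G} (hu : u ∈ S.U {s | k ≤ f (C.rc s)}) (c : F) {r : Rt D}
    (hr : f (C.rc r) = k) (hA : C.A b r ≤ 0) : S.cd r (S.x b c * u * (S.x b c)⁻¹) = S.cd r u :=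
  S.cd_conj_ge ((4 : ℤ) • f + C.prL b) (j := 2) (by omega) (by omega) (S.x_mem_U (by
    simp [Set.mem_ofPred_eq, h0, C.prL_rc, C.A_self]) c) (S.mem_fine hb h0 hk hu)
    (by simp only [LinearMap.add_apply, LinearMap.smul_apply, smul_eq_mul, C.prL_rc]; omega)
    (by simp only [LinearMap.add_apply, LinearMap.smul_apply, smul_eq_mul, C.prL_rc]; omega)

theorem cd_conj_lng' {k : ℤ} (hk : 0 < k) {u : G} (hu : u ∈ S.U {s | k ≤ f (C.rc s)}) (c : F) {r s : Rt D}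
    (hs : f (C.rc s) = k) (hA : C.A b s = -1) (e : C.rc r = C.rc s + C.rc b) :
    S.cd r (S.x b c * u * (S.x b c)⁻¹) = S.cd r u + C.N b s * c * S.cd s u := by
  have h1 := S.cd_comm_of_add ((4 : ℤ) • f + C.prL b) (k := 4 * k - 1) (by omega) (by simp [h0, C.prL_rc, C.A_self])
    (by simp only [LinearMap.add_apply, LinearMap.smul_apply, smul_eq_mul, C.prL_rc]; omega) e c (S.mem_fine hb h0 hk hu)
  have h2 := S.conj_ge f hk (Subgroup.mem_sup_left (S.x_mem_U (T := {r | 0 ≤ f (C.rc r)}) h0.ge c)) hu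
  rw [← h1, add_comm, ← S.cd_mul (f := f) hk.le (fun _ h => h) (by rw [e, map_add]; omega) (mul_mem h2 (inv_mem hu)) hu,
    inv_mul_cancel_right]

omit S in
theorem N_mul_N {r s : Rt D} (hs : 0 < f (C.rc s)) (hA : C.A b s = -1) (e : C.rc r = C.rc s + C.rc b) :
    C.N b s * C.N b.rev r = 1 := by
  have h1 : C.cl b.rev s = 0 := (C.N_eq_zero_iff' _ _).1 (C.N_eq_zero_of_not_root fun u hu => by
    have h2 := (A_lng hb h0 (s := u) (by rw [hu, map_add, C.rc_neg, map_neg]; omega)).1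
    rw [← C.pr_rc, hu, C.pr_add, C.pr_rc, C.pr_rc, C.A_rev_right, C.A_self] at h2
    omega)
  have h2 := C.A_eq_cl (r := b) (s := s) (by rintro rfl; omega) (by rintro rfl; rw [C.rc_neg, map_neg] at hs; omega)
  rw [C.N_prod' (C.ch_one_of_add (e.trans (add_comm _ _)))]
  rw [h1, hA] at h2
  rw [h1]; omega

theorem fpf_pair {h : G} (hh : h ∈ S.H) {c : F} {k : ℤ} (hk : 0 < k) {u : G} (hu : u ∈ S.U {s | k ≤ f (C.rc s)})
    (e' : u = S.x b.rev 1 * (S.x b c * (h * u * h⁻¹) * (S.x b c)⁻¹) * (S.x b.rev 1)⁻¹) {r s : Rt D}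
    (hs : f (C.rc s) = k) (hA : C.A b s = -1) (e : C.rc r = C.rc s + C.rc b)
    (h2 : (1 - S.chi h s : F) * (1 - S.chi h s * S.chi h b) ≠ c * S.chi h s) : S.cd s u = 0 ∧ S.cd r u = 0 := by
  have hb' : ∀ u, C.len u ≤ C.len b.rev := fun u => by rw [C.len_rev]; exact hb u
  have h0' : f (C.rc b.rev) = 0 := by rw [C.rc_neg, map_neg, h0, neg_zero]
  have k1 := H_conj_U hh hu
  have k2 := S.conj_ge f hk (Subgroup.mem_sup_left (S.x_mem_U (T := {r | 0 ≤ f (C.rc r)}) h0.ge c)) k1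
  have hr : f (C.rc r) = k := by rw [e, map_add]; omega
  have hA' : C.A b.rev r = -1 := by rw [C.A_rev_left, ← C.pr_rc, e, C.pr_add, C.pr_rc, C.pr_rc, C.A_self]; omega
  have e1 := S.cd_conj_lng' hb' h0' hk k2 1 hr hA' (r := s) (by rw [C.rc_neg, e]; abel)
  have e2 := S.cd_conj_lng hb' h0' hk k2 1 hr (by omega)
  have e5 := S.cd_conj_H hh hk.le (r := r) (by omega) hu
  have e6 := S.cd_conj_H hh hk.le (r := s) (by omega) hu
  rw [(isChar_chi hh).2 _ _ _ e, Units.val_mul] at e5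
  rw [← e', S.cd_conj_lng' hb h0 hk k1 c hs hA e, e5, e6] at e2
  rw [← e', S.cd_conj_lng' hb h0 hk k1 c hs hA e, S.cd_conj_lng hb h0 hk k1 c hs (by omega), e5, e6, ← e2] at e1
  have e3 : (C.N b s : F) * C.N b.rev r = 1 := by
    exact_mod_cast congrArg (Int.cast : ℤ → F) (N_mul_N hb h0 (by omega) hA e)
  have e4 : S.cd s u = 0 := (mul_eq_zero.1 (show ((1 - S.chi h s : F) * (1 - S.chi h s * S.chi h b) -
    c * S.chi h s) * S.cd s u = 0 by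
      linear_combination (1 - S.chi h s * S.chi h b) * e1 + C.N b.rev r * e2 +
        c * S.chi h s * S.cd s u * e3)).resolve_left (sub_ne_zero.2 h2)
  exact ⟨e4, by linear_combination - C.N b s * e1 - S.cd r u * e3 + C.N b s * (1 - S.chi h s) * e4⟩

theorem fpf_step {h : G} (hh : h ∈ S.H) {c : F} (h1 : ∀ s, 0 < f (C.rc s) → C.A b s = 0 → S.chi h s ≠ 1)
    (h2 : ∀ s, 0 < f (C.rc s) → C.A b s = -1 → (1 - S.chi h s : F) * (1 - S.chi h s * S.chi h b) ≠ c * S.chi h s)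
    {k : ℤ} (hk : 0 < k) {u : G} (hu : u ∈ S.U {s | k ≤ f (C.rc s)})
    (e' : u = S.x b.rev 1 * (S.x b c * (h * u * h⁻¹) * (S.x b c)⁻¹) * (S.x b.rev 1)⁻¹) {r : Rt D}
    (hr : f (C.rc r) = k) : S.cd r u = 0 := by
  have h4 := A_lng hb h0 (s := r) (by omega)
  obtain h5 | h5 | h5 : C.A b r = -1 ∨ C.A b r = 0 ∨ C.A b r = 1 := by omega
  · exact (S.fpf_pair hb h0 hh hk hu e' (r := C.refl b r) hr h5 (by rw [C.rc_refl, h5]; simp) (h2 r (by omega) h5)).1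
  · have k1 := H_conj_U hh hu
    have e1 := S.cd_conj_lng (b := b.rev) (fun u => by rw [C.len_rev]; exact hb u)
      (by rw [C.rc_neg, map_neg, h0, neg_zero]) hk
      (S.conj_ge f hk (Subgroup.mem_sup_left (S.x_mem_U (T := {r | 0 ≤ f (C.rc r)}) h0.ge c)) k1) 1 hr
      (by rw [C.A_rev_left]; omega)
    rw [← e', S.cd_conj_lng hb h0 hk k1 c hr h5.le, S.cd_conj_H hh hk.le (by omega) hu] at e1
    exact (mul_left_eq_self₀.1 e1.symm).resolve_left fun h => h1 r (by omega) h5 (Units.ext h)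
  · have h6 : f (C.rc (C.refl b r)) = k := by rw [C.rc_refl, h5, map_sub, one_smul]; omega
    have h7 : C.A b (C.refl b r) = -1 := by rw [C.A_refl_self, h5]
    exact (S.fpf_pair hb h0 hh hk hu e' h6 h7 (by rw [C.rc_refl, h5]; simp) (h2 _ (by omega) h7)).2

/-- a fixed point free action on the radical -/
theorem fpf {h : G} (hh : h ∈ S.H) {c : F} (h1 : ∀ s, 0 < f (C.rc s) → C.A b s = 0 → S.chi h s ≠ 1)
    (h2 : ∀ s, 0 < f (C.rc s) → C.A b s = -1 → (1 - S.chi h s : F) * (1 - S.chi h s * S.chi h b) ≠ c * S.chi h s)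
    {u : G} (hu : u ∈ S.U {s | 1 ≤ f (C.rc s)})
    (e : S.x b.rev 1 * S.x b c * h * u = u * (S.x b.rev 1 * S.x b c * h)) : u = 1 :=
  S.eq_one_of_levels hu fun k hk hu r hr => S.fpf_step hb h0 hh h1 h2 hk hu (by
    rw [show S.x b.rev 1 * (S.x b c * (h * u * h⁻¹) * (S.x b c)⁻¹) * (S.x b.rev 1)⁻¹ =
      S.x b.rev 1 * S.x b c * h * u * (S.x b.rev 1 * S.x b c * h)⁻¹ by group, e, mul_inv_cancel_right]) hr

end Sys

/-- data for a maximal parabolic subgroup whose Levi factor belongs to a long root -/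
structure LL (S : Sys C F G) (k : Type*) [Field k] where
  T : Stb S
  K : Subgroup G
  bn : T.BN K
  inj : Function.Injective S.φ
  j : Nd D
  πj : T.π j = j
  two : ∀ i i', i ≠ j → i' ≠ j → i' ∈ T.orb i
  lng : ∀ u, C.len u ≤ C.len (C.sp j)
  w0 : ∀ r, C.w0 Set.univ r = r.rev
  ι : k →+* F
  mem_x : ∀ t, S.x (C.sp j) t ∈ K ↔ ∃ s, ι s = t
  mem_y : ∀ t, S.x (C.sp j).rev t ∈ K ↔ ∃ s, ι s = t
  lead : ∀ r, C.Pos r → ¬ C.InJ {j} r →
    ∃ y ∈ K, y ∈ S.UJ {j} ∧ y ∈ S.U {s | C.ht r ≤ Cert.lev ∅ (C.rc s)} ∧ S.cd r y ≠ 0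
  θ : Rt D
  hθ : C.A θ (C.sp j) = 1
  θK : ∀ t : kˣ, S.h θ (Units.map (ι : k →* F) t) ∈ K
  n : G
  nK : n ∈ K
  n_over : S.Over n (C.w0 Set.univ * C.ss j)
  n_x : ∀ t, n * S.x (C.sp j) t = S.x (C.sp j) t * n
  n_y : ∀ t, n * S.x (C.sp j).rev t = S.x (C.sp j).rev t * n
  r1 : ∀ i, i ≠ j → ∀ m ∈ K, S.Over m (C.w0 (T.orb i)) → ∃ t : kˣ, S.Gd K m (S.h (C.sp j) (Units.map (ι : k →* F) t))
  sp : (2 : k) = 0 → ∀ m ∈ K, S.Over m (C.w0 Set.univ * C.ss j) → ∃ t : kˣ, ∀ c : k, ∃ y ∈ K, y ∈ S.UJ {j} ∧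
    ∃ v ∈ S.QM {j}, ∃ u ∈ S.UJ {j}, y * m = v * (S.x (C.sp j) (ι c) * S.h (C.sp j) (Units.map (ι : k →* F) t)) * u

namespace LL

variable {S : Sys C F G} {k : Type*} [Field k] (R : LL S k)

theorem exists_f : ∃ f : SL(2, k) →* G, (∀ t, f (sl2X k t) = S.x (C.sp R.j) (R.ι t)) ∧
    ∀ t, f (sl2Y k t) = S.x (C.sp R.j).rev (R.ι t) := by
  obtain ⟨f, h1, h2, -⟩ := S.exists_sl2 R.inj (C.sp R.j)
  refine ⟨f.comp (Matrix.SpecialLinearGroup.map R.ι), fun t => ?_, fun t => ?_⟩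
  · rw [← h1]
    exact congrArg f (sl_ext (show (!![1, t; 0, 1] : M2 k).map R.ι = !![1, R.ι t; 0, 1] by
      ext i j; fin_cases i <;> fin_cases j <;> simp))
  · rw [← h2]
    exact congrArg f (sl_ext (show (!![1, 0; t, 1] : M2 k).map R.ι = !![1, 0; R.ι t, 1] by
      ext i j; fin_cases i <;> fin_cases j <;> simp))

/-- the long root subgroup -/
noncomputable def f : SL(2, k) →* G := R.exists_f.choose

theorem f_X (t : k) : R.f (sl2X k t) = S.x (C.sp R.j) (R.ι t) := R.exists_f.choose_spec.1 t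
theorem f_Y (t : k) : R.f (sl2Y k t) = S.x (C.sp R.j).rev (R.ι t) := R.exists_f.choose_spec.2 t

theorem f_w (t : kˣ) : R.f ((sl2Std k).w t) = S.n (C.sp R.j) (Units.map (R.ι : k →* F) t) := by
  simp only [SL2Sys.w, map_mul, sl2Std, f_X, f_Y]; simp [Sys.n]

theorem f_h (t : kˣ) : R.f ((sl2Std k).h t) = S.h (C.sp R.j) (Units.map (R.ι : k →* F) t) := by
  have := R.f_w (-1)
  rw [Units.val_neg, Units.val_one] at this
  rw [SL2Sys.h, map_mul, f_w, this, Sys.h]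
  congr 2
  ext; simp

theorem f_mem {A : Subgroup G} (hx : ∀ t, S.x (C.sp R.j) (R.ι t) ∈ A) (hy : ∀ t, S.x (C.sp R.j).rev (R.ι t) ∈ A)
    (M : SL(2, k)) : R.f M ∈ A := by
  refine (show ⊤ ≤ A.comap R.f from ?_) (Subgroup.mem_top M)
  rw [← sl2Std_closure, Subgroup.closure_le]
  rintro _ (⟨t, rfl⟩ | ⟨t, rfl⟩)
  · exact (show R.f (sl2X k t) ∈ A from (R.f_X t).symm ▸ hx t)
  · exact (show R.f (sl2Y k t) ∈ A from (R.f_Y t).symm ▸ hy t)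

theorem inJ : C.InJ {R.j} (C.sp R.j) := C.inJ_sp.2 rfl

theorem f_K (M : SL(2, k)) : R.f M ∈ R.K :=
  R.f_mem (fun t => (R.mem_x _).2 ⟨t, rfl⟩) (fun t => (R.mem_y _).2 ⟨t, rfl⟩) M

theorem f_L (M : SL(2, k)) : R.f M ∈ S.L {R.j} :=
  R.f_mem (fun t => S.x_mem_L R.inJ _) (fun t => S.x_mem_L (C.inJ_rev.2 R.inJ) _) M

theorem f_comm {z : G} (hx : ∀ t, z * S.x (C.sp R.j) t = S.x (C.sp R.j) t * z)
    (hy : ∀ t, z * S.x (C.sp R.j).rev t = S.x (C.sp R.j).rev t * z) (M : SL(2, k)) : z * R.f M = R.f M * z :=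
  (Subgroup.mem_centralizer_singleton_iff.1 (R.f_mem (A := Subgroup.centralizer {z})
    (fun t => Subgroup.mem_centralizer_singleton_iff.2 (hx _).symm)
    (fun t => Subgroup.mem_centralizer_singleton_iff.2 (hy _).symm) M)).symm

theorem H_conj_f {a : G} (ha : a ∈ S.H) {t : kˣ} (ht : S.chi a (C.sp R.j) = Units.map (R.ι : k →* F) t)
    (M : SL(2, k)) : ∃ M' : SL(2, k), a * R.f M = R.f M' * a ∧ M'.1 * !![(t : k), 0; 0, 1] = !![(t : k), 0; 0, 1] * M.1 := by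
  have hM : M ∈ Subgroup.closure (Set.range (sl2Std k).x ∪ Set.range (sl2Std k).y) := by
    rw [sl2Std_closure]; trivial
  induction hM using Subgroup.closure_induction with
  | mem x hx =>
    rcases hx with ⟨s, rfl⟩ | ⟨s, rfl⟩
    · refine ⟨sl2X k (t * s), ?_, by ext i j; fin_cases i <;> fin_cases j <;> simp [sl2X, sl2Std]⟩
      rw [← mul_inv_eq_iff_eq_mul, f_X, show (sl2Std k).x s = sl2X k s from rfl, f_X, Sys.H_conj_x ha, ht]; simp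
    · refine ⟨sl2Y k ((t⁻¹ : kˣ) * s), ?_, by ext i j; fin_cases i <;> fin_cases j <;> simp [sl2Y, sl2Std, mul_right_comm _ s]⟩
      rw [← mul_inv_eq_iff_eq_mul, f_Y, show (sl2Std k).y s = sl2Y k s from rfl, f_Y, Sys.H_conj_x ha,
        (Sys.isChar_chi ha).1, ht]; simp
  | one => exact ⟨1, by simp, by simp⟩
  | mul x y _ _ hx hy =>
    obtain ⟨x', h1, h2⟩ := hx
    obtain ⟨y', h3, h4⟩ := hy
    exact ⟨x' * y', by rw [map_mul, map_mul, ← mul_assoc, h1, mul_assoc, h3, mul_assoc],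
      by rw [sl_mul_val, sl_mul_val, mul_assoc, h4, ← mul_assoc, h2, mul_assoc]⟩
  | inv x _ hx =>
    obtain ⟨x', h1, h2⟩ := hx
    refine ⟨x'⁻¹, by rw [map_inv, map_inv, mul_inv_eq_iff_eq_mul, mul_assoc, h1, inv_mul_cancel_left], ?_⟩
    calc _ = (x'⁻¹).1 * (!![(t : k), 0; 0, 1] * (x * x⁻¹).1) := by simp
      _ = (x'⁻¹ * x').1 * !![(t : k), 0; 0, 1] * (x⁻¹).1 := by
        rw [sl_mul_val, sl_mul_val, ← mul_assoc _ x.1, ← h2]; simp only [mul_assoc]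
      _ = _ := by simp

theorem stable : R.T.Stable {R.j} := fun i => by
  simp only [Set.mem_singleton_iff]
  exact ⟨fun h => R.T.π.injective (h.trans R.πj.symm), fun h => h ▸ R.πj⟩

theorem exists_ne : ∃ i, i ≠ R.j := by
  have := C.two_le_rank
  exact @_root_.exists_ne _ (Fin.nontrivial_iff_two_le.2 this) _

theorem exists_X {a : G} (ha : a ∈ R.K) (ha' : a ∈ S.U {r | C.Pos r ∧ C.InJ {R.j} r}) : ∃ s, a = R.f (sl2X k s) := by
  obtain ⟨t, rfl⟩ := (S.mem_U_singleton (r := C.sp R.j)).1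
    (S.U_mono (fun r hr => Set.mem_singleton_iff.2 (Cert.eq_sp_of_inJ_singleton hr.1 hr.2)) ha')
  obtain ⟨s, rfl⟩ := (R.mem_x t).1 ha
  exact ⟨s, (R.f_X s).symm⟩

theorem exists_Y {a : G} (ha : a ∈ R.K) (ha' : a ∈ S.U {r | ¬ C.Pos r ∧ C.InJ {R.j} r}) :
    ∃ s, a = R.f (sl2Y k s) := by
  obtain ⟨t, rfl⟩ := (S.mem_U_singleton (r := (C.sp R.j).rev)).1 (S.U_mono (fun r hr => by
    rw [← Cert.eq_sp_of_inJ_singleton ((C.pos_rev_iff r).2 hr.1) (C.inJ_rev.2 hr.2), Fin.rev_rev]; rfl) ha')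
  obtain ⟨s, rfl⟩ := (R.mem_y t).1 ha
  exact ⟨s, (R.f_Y s).symm⟩

theorem exists_over {w : Perm (Rt D)} (hw : w ∈ C.WJ {R.j}) : ∃ M, S.Over (R.f M) w := by
  refine C.WJ_induction_right (P := fun w => ∃ M, S.Over (R.f M) w) ⟨1, by simpa using S.over_one⟩ ?_ hw
  rintro w - j rfl ⟨M, h⟩
  exact ⟨M * (sl2Std k).w (1 : kˣ), by rw [map_mul, f_w]; exact h.mul (S.over_ns _ _)⟩

theorem exists_P {p : G} (hp : p ∈ R.K) (hp' : p ∈ S.P {R.j}) :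
    ∃ a ∈ R.K, a ∈ S.H ∧ ∃ M, ∃ q ∈ R.K, q ∈ S.UJ {R.j} ∧ p = a * R.f M * q := by
  obtain ⟨w, hw, hc⟩ := Sys.mem_P_iff.1 hp'
  obtain ⟨-, u, hu, hu', m, hm, hm', u', h1, h2, rfl⟩ := R.bn.toGood.nf hp hc
  obtain ⟨N, hN⟩ := R.exists_over hw
  have ha := mul_mem hm (inv_mem (R.f_K N))
  have ha' := hm'.mul_inv_mem_H hN
  obtain ⟨x, hx, hx', q, hq, hq', e⟩ := Sys.split_Up R.bn.toGood R.stable (mul_mem (mul_mem (inv_mem ha) hu) ha)
    (Sys.H_inv_conj_U ha' hu')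
  obtain ⟨y, hy, hy', q', hq1, hq2, rfl⟩ := Sys.split_Up R.bn.toGood R.stable h1 (S.Uw_le_Up w h2)
  obtain ⟨s, rfl⟩ := R.exists_X hx hx'
  obtain ⟨s', rfl⟩ := R.exists_X hy hy'
  refine ⟨_, ha, ha', sl2X k s * (N * sl2X k s'), (R.f (N * sl2X k s'))⁻¹ * q * (R.f (N * sl2X k s'))⁻¹⁻¹ * q',
    mul_mem (mul_mem (mul_mem (inv_mem (R.f_K _)) hq) (inv_mem (inv_mem (R.f_K _)))) hq1,
    mul_mem (S.L_conj_UJ (inv_mem (R.f_L _)) hq') hq2, ?_⟩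
  rw [show u = m * (R.f N)⁻¹ * ((m * (R.f N)⁻¹)⁻¹ * u * (m * (R.f N)⁻¹)) * (m * (R.f N)⁻¹)⁻¹ by group, e]
  simp only [map_mul]; group

theorem eq_w0 {d : Perm (Rt D)} (hd : d ∈ C.W) (e : R.T.cj d = d) (h1 : d ∉ C.WJ {R.j}) (h2 : d (C.sp R.j) = C.sp R.j) :
    d = C.w0 Set.univ * C.ss R.j := by
  have hA := C.W_le_Aut hd
  have h3 : ∀ i, i ≠ R.j → ¬ C.Pos (d (C.sp i)) := fun i hi h => h1 (by
    rw [Cert.eq_one_of_pos hd fun i' => ?_]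
    · exact one_mem _
    by_cases h4 : i' = R.j
    · rw [h4, h2]; exact C.pos_sp _
    · exact ((Stb.stable_desc e).orb_iff (R.two i i' hi h4)).2 h)
  rw [← Cert.eq_w0 (w := d * C.ss R.j) (mul_mem hd (C.ss_mem_W _)) fun i _ => ?_, mul_assoc, C.ss_mul_self, mul_one]
  by_cases hi : i = R.j
  · rw [hi, Perm.mul_apply, C.ss_sp, Cert.Aut.map_rev hA, h2]; exact C.not_pos_rev (C.pos_sp _)
  have h4 : d * C.ss R.j = C.ss R.j * d := by rw [Cert.ss, Cert.Aut.mul_sr hA, h2]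
  rw [h4, Perm.mul_apply, C.pos_ss_iff]
  · exact h3 i hi
  · exact fun h => h3 i hi (h ▸ C.pos_sp _)
  · intro h
    rw [← h2, ← Cert.Aut.map_rev hA] at h
    exact C.not_pos_rev (C.pos_sp R.j) (d.injective h ▸ C.pos_sp i)

theorem family {d : Perm (Rt D)} {m : G} (hm : m ∈ R.K) (hm' : S.Over m d) (h1 : d ∉ C.WJ {R.j})
    (h2 : C.Pos (d (C.sp R.j))) : ∃ A B E : SL(2, k), ∀ c : k, (2 : k) = 0 ∨ c = 0 → ∃ y ∈ R.K, y ∈ S.UJ {R.j} ∧
      ∃ v ∈ R.K, v ∈ S.QM {R.j} ∧ ∃ u ∈ R.K, u ∈ S.UJ {R.j} ∧ R.f E * y * m = v * R.f (A * sl2X k c * B) * u := by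
  have hK := R.bn.toGood
  have e := Stb.cj_eq_of_cell (hK.fix _ hm) hm'.cell
  by_cases h3 : (2 : k) = 0 ∧ d (C.sp R.j) = C.sp R.j
  · obtain ⟨t, ht⟩ := R.sp h3.1 m hm (R.eq_w0 hm'.mem_W e h1 h3.2 ▸ hm')
    refine ⟨1, (sl2Std k).h t, 1, fun c _ => ?_⟩
    obtain ⟨y, hy, hy', v, hv, u, hu, e⟩ := ht c
    rw [← f_X, ← f_h, ← map_mul] at e
    have := Sys.gauss_fix R.stable hv (R.f_L _) hu (e ▸ hK.fix _ (mul_mem hy hm))
    exact ⟨y, hy, hy', v, hK.um _ (S.QM_le_Um _ hv) this.1, hv, u, hK.up _ (S.UJ_le_Up _ hu) this.2.2, hu, by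
      rw [map_one, one_mul, one_mul, e]⟩
  obtain ⟨_, ⟨-, -, y, hy, hy', v, hv, hv', u, hu, hu', e⟩, t, rfl⟩ := Sys.gd_pred R.bn R.stable
    (P := fun h => ∃ t : kˣ, h = S.h (C.sp R.j) (Units.map (R.ι : k →* F) t)) (fun i hi n hn hn' => by
      obtain ⟨t, ht⟩ := R.r1 i hi n hn hn'
      exact ⟨_, ht, t, rfl⟩) hm'.mem_W e h1 m hm hm'
  obtain ⟨x1, hx1, hx1', q1, hq1, hq1', rfl⟩ := Sys.split_Up hK R.stable hy hy'
  obtain ⟨q2, hq2, hq2', x2, hx2, hx2', rfl⟩ := Sys.split_Um hK R.stable hv hv'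
  obtain ⟨x3, hx3, hx3', q3, hq3, hq3', rfl⟩ := Sys.split_Up hK R.stable hu hu'
  obtain ⟨s1, rfl⟩ := R.exists_X hx1 hx1'
  obtain ⟨s2, rfl⟩ := R.exists_Y hx2 hx2'
  obtain ⟨s3, rfl⟩ := R.exists_X hx3 hx3'
  rw [← f_h] at e
  refine ⟨sl2Y k s2 * (sl2Std k).h t * sl2X k s3, 1, sl2X k s1, fun c hc => ⟨q1 * (m * R.f (sl2X k c) * m⁻¹),
    mul_mem hq1 (mul_mem (mul_mem hm (R.f_K _)) (inv_mem hm)), mul_mem hq1' ?_, q2, hq2, hq2',
    (R.f (sl2X k c))⁻¹ * q3 * (R.f (sl2X k c))⁻¹⁻¹,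
    mul_mem (mul_mem (inv_mem (R.f_K _)) hq3) (inv_mem (inv_mem (R.f_K _))), S.L_conj_UJ (inv_mem (R.f_L _)) hq3', ?_⟩⟩
  · rw [f_X]
    rcases hc with hc | rfl
    · obtain ⟨a, ha⟩ := hm'.acts (C.sp R.j)
      rw [ha]
      exact S.x_mem_UJ h2 (fun h => h3 ⟨hc, Cert.eq_sp_of_inJ_singleton h2 h⟩) _
    · simp [Sys.x_zero]
  · rw [show R.f (sl2X k s1) * (q1 * (m * R.f (sl2X k c) * m⁻¹)) * m = R.f (sl2X k s1) * q1 * m * R.f (sl2X k c) by group,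
      e]
    simp only [map_mul, mul_one]; group

theorem gauss {g : G} (hg : g ∈ R.K) (h1 : g ≠ 1) : ∃ M : SL(2, k), ((2 : k) = 0 → M = 1 ∨ M.1.trace ≠ 0) ∧
    ∃ c ∈ R.K, ∃ v ∈ R.K, v ∈ S.QM {R.j} ∧ ∃ u ∈ R.K, u ∈ S.UJ {R.j} ∧ c * g * c⁻¹ = v * R.f M * u := by
  have hK := R.bn.toGood
  obtain ⟨i, hi⟩ := R.exists_ne
  obtain ⟨c, hc, h2⟩ := Sys.exists_conj_notMem hK R.inj R.w0 (J := {R.j}) hi R.lead hg h1
  obtain ⟨w, hw, h3⟩ := S.exists_cell (c * g * c⁻¹)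
  obtain ⟨-, u, hu, hu', m, hm, hm', u', h4, h5, e⟩ := hK.nf (mul_mem (mul_mem hc hg) (inv_mem hc)) h3
  obtain ⟨v, hv, h6⟩ := Cert.exists_min_coset {R.j} hm'.mem_Aut
  obtain ⟨N, hN⟩ := R.exists_over hv
  obtain ⟨a, ha, ha', M, q, hq, hq', e'⟩ := R.exists_P (mul_mem (inv_mem (R.f_K N)) (mul_mem h4 hu))
    (mul_mem (inv_mem (S.L_le_P _ (R.f_L N))) (S.Up_le_P _ (mul_mem (S.Uw_le_Up w h5) hu')))
  obtain ⟨A, B, E, h7⟩ := R.family (mul_mem (mul_mem hm (R.f_K N)) ha) ((hm'.mul hN).mul_H ha')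
    (fun h => h2 (h3.mem_P (by simpa using mul_mem h (inv_mem hv)))) (h6 _ rfl)
  obtain ⟨s, h8, h9⟩ : ∃ s, ((2 : k) = 0 ∨ s = 0) ∧ ((2 : k) = 0 → A * sl2X k s * (B * M * E⁻¹) = 1 ∨
      (A * sl2X k s * (B * M * E⁻¹)).1.trace ≠ 0) := by
    by_cases h : (2 : k) = 0
    · obtain ⟨s, hs⟩ := exists_trace h A (B * M * E⁻¹)
      exact ⟨s, Or.inl h, fun _ => hs⟩
    · exact ⟨0, Or.inr rfl, fun h' => absurd h' h⟩
  obtain ⟨y, hy, hy', v', hv1, hv2, z, hz, hz', e''⟩ := h7 s h8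
  refine ⟨_, h9, R.f E * y * u⁻¹ * c, mul_mem (mul_mem (mul_mem (R.f_K _) hy) (inv_mem hu)) hc, v', hv1, hv2,
    R.f E * ((R.f M)⁻¹ * z * (R.f M)⁻¹⁻¹ * q * y⁻¹) * (R.f E)⁻¹,
    mul_mem (mul_mem (R.f_K _) (mul_mem (mul_mem (mul_mem (mul_mem (inv_mem (R.f_K _)) hz)
      (inv_mem (inv_mem (R.f_K _)))) hq) (inv_mem hy))) (inv_mem (R.f_K _)),
    S.L_conj_UJ (R.f_L _) (mul_mem (mul_mem (S.L_conj_UJ (inv_mem (R.f_L _)) hz') hq') (inv_mem hy')), ?_⟩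
  calc _ = R.f E * y * u⁻¹ * (c * g * c⁻¹) * u * (R.f E * y)⁻¹ := by group
    _ = R.f E * y * (m * R.f N) * ((R.f N)⁻¹ * (u' * u)) * (R.f E * y)⁻¹ := by rw [e]; group
    _ = R.f E * y * (m * R.f N * a) * R.f M * q * (R.f E * y)⁻¹ := by rw [e']; group
    _ = _ := by rw [e'']; simp only [map_mul, map_inv]; group

end LL

end Cfsg.Agent.Chev
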