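import Cfsg.Agent.Chev.Gauss3

/-!
Squares of semisimple classes from a long root Levi factor.
-/

set_option autoImplicit false
set_option linter.unusedSimpArgs false
set_option linter.unusedVariables false

namespace Cfsg.Agent.Chev

open Cfsg.Lie Cfsg.Lie.ChevalleyDatum Equiv Tw SL2 Stein
open scoped MatrixGroups

attribute [-simp] zsmul_eq_mul nsmul_eq_mul

variable {D : ChevalleyDatum} {C : Cert D} {F : Type*} [Field F] {G : Type*} [Group G]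

namespace Sys

variable (S : Sys C F G)

/-- no fixed points on the two radicals -/
def Cz (J : Set (Nd D)) (y : G) : Prop := ∀ u, u ∈ S.UJ J ∨ u ∈ S.QM J → y * u = u * y → u = 1

variable {S} {J : Set (Nd D)}

theorem Cz.conj {y c : G} (h : S.Cz J y) (hc : ∀ u, u ∈ S.UJ J ∨ u ∈ S.QM J → c⁻¹ * u * c⁻¹⁻¹ ∈ S.UJ J ∨
    c⁻¹ * u * c⁻¹⁻¹ ∈ S.QM J) : S.Cz J (c * y * c⁻¹) := fun u hu e => conj_eq_one_iff.1 (h _ (hc u hu) (by
  calc _ = c⁻¹ * (c * y * c⁻¹ * u) * c := by group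
    _ = _ := by rw [e]; group))

theorem Cz.conj_L {y c : G} (h : S.Cz J y) (hc : c ∈ S.L J) : S.Cz J (c * y * c⁻¹) :=
  h.conj fun u hu => hu.imp (S.L_conj_UJ (inv_mem hc)) (S.L_conj_QM (inv_mem hc))

theorem absorb_two {K : Subgroup G} [Finite K] {x y v u : G} (hx : x ∈ K) (hx' : x ∈ S.L J) (h : S.Cz J x) (hy : y ∈ K)
    (hy' : y ∈ S.L J) (h' : S.Cz J y) (hv : v ∈ K) (hv' : v ∈ S.QM J) (hu : u ∈ K) (hu' : u ∈ S.UJ J) :
    ∃ a ∈ K, ∃ b ∈ K, v * (x * y) * u = a * x * a⁻¹ * (b * y * b⁻¹) := by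
  have : ∀ A : Subgroup G, Finite ↥(A ⊓ K) := fun A => Finite.of_injective _ (Subgroup.inclusion_injective inf_le_right)
  obtain ⟨a, ha, e⟩ := absorb (Q := S.QM J ⊓ K) (x := x)
    (fun u hu => ⟨S.L_conj_QM hx' hu.1, K.mul_mem (K.mul_mem hx hu.2) (inv_mem hx)⟩) (fun u hu => h u (Or.inr hu.1)) ⟨hv', hv⟩
  obtain ⟨b, hb, e'⟩ := absorb (Q := S.UJ J ⊓ K) (x := y)
    (fun u hu => ⟨S.L_conj_UJ hy' hu.1, K.mul_mem (K.mul_mem hy hu.2) (inv_mem hy)⟩) (fun u hu => h' u (Or.inl hu.1))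
    ⟨S.L_conj_UJ hy' hu', K.mul_mem (K.mul_mem hy hu) (inv_mem hy)⟩
  exact ⟨a, ha.2, b, hb.2, by rw [e, e']; group⟩

end Sys

namespace LL

variable {S : Sys C F G} {k : Type*} [Field k] (R : LL S k)

/-- the torus complementing the long root subgroup -/
def τ (t : kˣ) : G := S.h R.θ (Units.map (R.ι : k →* F) t)

theorem τ_H (t : kˣ) : R.τ t ∈ S.H := S.h_mem _ _

theorem chi_τ (t : kˣ) : S.chi (R.τ t) (C.sp R.j) = Units.map (R.ι : k →* F) t := by rw [τ, Sys.chi_h, R.hθ, zpow_one]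

theorem τ_mul (s t : kˣ) : R.τ (s * t) = R.τ s * R.τ t := by rw [τ, map_mul, S.h_mul R.inj]; rfl

theorem τ_one : R.τ 1 = 1 := by rw [τ, map_one, S.h_one]

/-- `g` represents the invertible matrix `P` -/
def Rep (P : M2 k) (g : G) : Prop := ∃ (M : SL(2, k)) (t : kˣ), g = R.f M * R.τ t ∧ P = M.1 * !![(t : k), 0; 0, 1]

theorem rep_f (M : SL(2, k)) : R.Rep M.1 (R.f M) :=
  ⟨M, 1, by rw [τ_one, mul_one], by rw [Units.val_one, ← Matrix.one_fin_two, mul_one]⟩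

theorem exists_rep {P : M2 k} (h : P.det ≠ 0) : ∃ g, R.Rep P g :=
  ⟨_, ⟨P * !![P.det⁻¹, 0; 0, 1], by simp [h]⟩, Units.mk0 _ h, rfl, by
    simp only [mul_assoc]; simp [h, ← Matrix.one_fin_two]⟩

variable {R}

theorem Rep.mul {P P' : M2 k} {g g' : G} (h : R.Rep P g) (h' : R.Rep P' g') : R.Rep (P * P') (g * g') := by
  obtain ⟨M, t, rfl, rfl⟩ := h
  obtain ⟨M', t', rfl, rfl⟩ := h'
  obtain ⟨N, h1, h2⟩ := R.H_conj_f (R.τ_H t) (R.chi_τ t) M'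
  refine ⟨M * N, t * t', by rw [map_mul, τ_mul, mul_assoc, ← mul_assoc (R.τ t), h1]; simp only [mul_assoc], ?_⟩
  rw [mul_assoc, ← mul_assoc _ M'.1, ← h2, sl_mul_val, mul_assoc, mul_assoc]
  simp

theorem Rep.unique {P : M2 k} {g g' : G} (h : R.Rep P g) (h' : R.Rep P g') : g = g' := by
  obtain ⟨M, t, rfl, rfl⟩ := h
  obtain ⟨M', t', rfl, e⟩ := h'
  obtain rfl : t = t' := Units.ext (by simpa using congrArg Matrix.det e)
  have := congrArg (· * !![((t⁻¹ : kˣ) : k), 0; 0, 1]) e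
  simp only [mul_assoc] at this
  rw [sl_ext (g := M) (h := M') (by simpa [← Matrix.one_fin_two] using this)]

theorem Rep.pow {P : M2 k} {g : G} (h : R.Rep P g) (n : ℕ) : R.Rep (P ^ n) (g ^ n) := by
  induction n with
  | zero => simpa using R.rep_f 1
  | succ n ih => rw [pow_succ, pow_succ]; exact ih.mul h

theorem Rep.mem_K {P : M2 k} {g : G} (h : R.Rep P g) : g ∈ R.K := by
  obtain ⟨M, t, rfl, -⟩ := h
  exact mul_mem (R.f_K M) (R.θK t)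

theorem Rep.mem_L {P : M2 k} {g : G} (h : R.Rep P g) : g ∈ S.L {R.j} := by
  obtain ⟨M, t, rfl, -⟩ := h
  exact mul_mem (R.f_L M) (S.H_le_L _ (R.τ_H t))

theorem Rep.comm {P : M2 k} {g z : G} (h : R.Rep P g) (hz : z ∈ S.H) (h1 : S.chi z (C.sp R.j) = 1) : z * g = g * z := by
  obtain ⟨M, t, rfl, -⟩ := h
  rw [← mul_assoc, R.f_comm (fun t => by rw [← mul_inv_eq_iff_eq_mul, Sys.H_conj_x hz, h1]; simp)
    (fun t => by rw [← mul_inv_eq_iff_eq_mul, Sys.H_conj_x hz, (Sys.isChar_chi hz).1, h1]; simp), mul_assoc,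
    S.H_comm R.inj hz (R.τ_H t), mul_assoc]

variable (R)

theorem n_conj_H {a : G} (ha : a ∈ S.H) : R.n * a * R.n⁻¹ = S.h (C.sp R.j) (S.chi a (C.sp R.j)) * a⁻¹ := by
  refine S.eq_of_chi R.inj (S.N_conj_H R.n_over.mem_N ha) (mul_mem (S.h_mem _ _) (inv_mem ha)) fun i => ?_
  have h1 := Sys.chi_conj R.n_over ha (C.refl (C.sp R.j) (C.sp i)).rev
  rw [Perm.mul_apply, C.ss_apply, C.refl_rev, C.refl_refl, R.w0, Fin.rev_rev] at h1
  have h2 := Sys.isChar_chi ha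
  rw [h1, Sys.chi_mul (S.h_mem _ _) (inv_mem ha), Sys.chi_h, Sys.chi_inv ha, h2.1, h2.eq_chr (C.refl _ _), C.rc_refl,
    Cert.chr_sub, Cert.chr_smul, ← h2.eq_chr, ← h2.eq_chr, mul_inv_rev, inv_inv]

theorem n_swap {u : G} (hu : u ∈ S.UJ {R.j} ∨ u ∈ S.QM {R.j}) :
    R.n⁻¹ * u * R.n⁻¹⁻¹ ∈ S.UJ {R.j} ∨ R.n⁻¹ * u * R.n⁻¹⁻¹ ∈ S.QM {R.j} := by
  have h1 : ∀ r, Cert.lev {R.j} (C.rc ((C.w0 Set.univ * C.ss R.j)⁻¹ r)) = - Cert.lev {R.j} (C.rc r) := fun r => by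
    rw [mul_inv_rev, C.ss_inv, Cert.w0_inv, Perm.mul_apply, Cert.lev_map (C.ss_mem_WJ (Set.mem_singleton _)), R.w0, C.rc_neg, map_neg]
  rw [S.UJ_eq_lev, S.QM_eq] at hu ⊢
  exact hu.symm.imp (R.n_over.inv.acts.conj_mem fun r hr => by
      rw [Set.mem_ofPred_eq, LinearMap.neg_apply] at hr; rwa [Set.mem_ofPred_eq, h1])
    (R.n_over.inv.acts.conj_mem fun r hr => by rwa [Set.mem_ofPred_eq, LinearMap.neg_apply, h1, neg_neg])

variable {R}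

theorem Rep.conj_n {P : M2 k} {g : G} (h : R.Rep P g) : R.Rep (P.det⁻¹ • P) (R.n * g * R.n⁻¹) := by
  obtain ⟨M, t, rfl, rfl⟩ := h
  refine ⟨M * (sl2Std k).h t, t⁻¹, ?_, ?_⟩
  · rw [← mul_assoc, R.f_comm R.n_x R.n_y, mul_assoc, mul_assoc, ← mul_assoc R.n, R.n_conj_H (R.τ_H t), chi_τ, map_mul,
      f_h, mul_assoc, eq_inv_of_mul_eq_one_left (show R.τ t⁻¹ * R.τ t = 1 by rw [← τ_mul, inv_mul_cancel, τ_one])]
  · rw [sl_mul_val, std_h_val t.ne_zero, mul_assoc, ← Matrix.mul_smul]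
    simp

variable (R)

theorem cover [Finite F] [Finite R.K] (p : ℕ) [Fact p.Prime] [CharP F p] {z : G} (hz : z ∈ R.K) (hz' : z ∈ S.H)
    (h1 : S.chi z (C.sp R.j) = 1) (d : kˣ) (c : k) (h2 : (d + (1 + c) : k) ^ 2 ≠ 4 * d)
    (h3 : ∀ s, ¬ C.InJ {R.j} s → C.A (C.sp R.j) s = 0 → S.chi (R.τ d * z) s ≠ 1)
    (h4 : ∀ s, C.A (C.sp R.j) s = -1 → (1 - S.chi (R.τ d * z) s : F) * (1 - S.chi (R.τ d * z) s * R.ι d) ≠
      R.ι c * S.chi (R.τ d * z) s)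
    (h5 : ∀ M : SL(2, k), ((2 : k) = 0 → M = 1 ∨ M.1.trace ≠ 0) →
      Fac (d : k) (d + (1 + c)) d⁻¹ ((d + (1 + c)) * (d : k)⁻¹) M.1 ∨ z = 1 ∧ Fac (d : k) (d + (1 + c)) d (d + (1 + c)) M.1) :
    ∃ x : R.K, ¬ p ∣ orderOf x ∧ ∀ g : R.K, g ≠ 1 → ∃ u v : R.K, g = u * x * u⁻¹ * (v * x * v⁻¹) := by
  have hp : p.Prime := Fact.out
  have := Finite.of_injective _ R.ι.injective
  have := R.ι.charP R.ι.injective p
  obtain ⟨P, hP, hd, ht⟩ : ∃ P, R.Rep P (R.f (sl2Y k 1 * sl2X k c) * R.τ d) ∧ P.det = d ∧ P.trace = d + (1 + c) :=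
    ⟨_, ⟨_, d, rfl, rfl⟩, by simp, by rw [sl_mul_val]; simp [sl2X, sl2Y, add_comm]⟩
  generalize hg : R.f (sl2Y k 1 * sl2X k c) * R.τ d = g₀ at hP
  have ha := mul_mem (R.τ_H d) hz'
  have k0 : S.Cz {R.j} (g₀ * z) := by
    have e : S.chi (R.τ d * z) (C.sp R.j) = R.ι d := by rw [Sys.chi_mul (R.τ_H d) hz', h1, chi_τ]; simp
    have h0 := Cert.lev_eq_zero_iff.2 R.inJ
    rw [← hg, map_mul, f_X, f_Y, map_one, mul_assoc]
    rintro u (hu | hu) e'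
    · exact S.fpf R.lng h0 ha (fun s hs => h3 s (Cert.lev_pos_iff.1 hs).2) (fun s _ h => e ▸ h4 s h)
        (S.UJ_eq_lev _ ▸ hu) e'
    · exact S.fpf R.lng (f := - Cert.lev {R.j}) (by rw [LinearMap.neg_apply, h0, neg_zero]) ha
        (fun s hs => h3 s fun h => by rw [LinearMap.neg_apply, Cert.lev_eq_zero_iff.2 h] at hs; omega)
        (fun s _ h => e ▸ h4 s h) (S.QM_eq _ ▸ hu) e'
  have k1 : ∀ {P' g}, R.Rep P' g → P'.det = d → P'.trace = d + (1 + c) →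
      ∃ a ∈ R.K, g * z = a * (g₀ * z) * a⁻¹ ∧ S.Cz {R.j} (g * z) := by
    intro P' g h e1 e2
    obtain ⟨Z, h6, h7⟩ := exists_conj_of_disc (P := P) (P' := P') (by rwa [hd, ht]) (e1.trans hd.symm) (e2.trans ht.symm)
    obtain ⟨a, h8⟩ := R.exists_rep h6
    have h9 : g * z = a * (g₀ * z) * a⁻¹ := by
      rw [← mul_assoc, (h8.mul hP).unique (h7 ▸ h.mul h8), mul_assoc g, ← h8.comm hz' h1]; group
    exact ⟨a, h8.mem_K, h9, h9 ▸ k0.conj_L h8.mem_L⟩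
  refine ⟨⟨g₀ * z, mul_mem hP.mem_K hz⟩, fun h => ?_, fun g hg => ?_⟩
  · obtain ⟨m, hm, e⟩ := exists_pow_of_disc p (P := P) (by rwa [hd, ht]) (hd ▸ d.ne_zero)
    have h6 : g₀ ^ m = 1 := (e ▸ hP.pow m).unique (by simpa using R.rep_f 1)
    refine (hp.dvd_mul.1 (h.trans (orderOf_dvd_of_pow_eq_one (n := m * (Nat.card F - 1)) (Subtype.ext ?_)))).elim hm
      (hp.coprime_iff_not_dvd.1 (Sys.coprime_card_sub_one F p))
    show (g₀ * z) ^ _ = 1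
    rw [Commute.mul_pow (hP.comm hz' h1).symm, pow_mul, h6, one_pow, mul_comm m, pow_mul, S.pow_card_sub_one R.inj hz',
      one_pow, one_mul]
  obtain ⟨M, hM, a, ha, v, hv, hv', u, hu, hu', e⟩ := R.gauss g.2 fun h => hg (Subtype.ext h)
  have k2 : ∀ {x y : G}, x ∈ S.L {R.j} → y ∈ S.L {R.j} → (∃ a ∈ R.K, x = a * (g₀ * z) * a⁻¹ ∧ S.Cz {R.j} x) →
      (∃ a ∈ R.K, y = a * (g₀ * z) * a⁻¹ ∧ S.Cz {R.j} y) → R.f M = x * y →
      ∃ u v : R.K, g = u * ⟨g₀ * z, mul_mem hP.mem_K hz⟩ * u⁻¹ * (v * ⟨g₀ * z, mul_mem hP.mem_K hz⟩ * v⁻¹) := by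
    rintro x y hx hy ⟨b, hb, rfl, hb'⟩ ⟨b', hb1, rfl, hb2⟩ e'
    have h0 := mul_mem hP.mem_K hz
    obtain ⟨c, hc, c', hc', e''⟩ := Sys.absorb_two (mul_mem (mul_mem hb h0) (inv_mem hb)) hx hb'
      (mul_mem (mul_mem hb1 h0) (inv_mem hb1)) hy hb2 hv hv' hu hu'
    rw [← e', ← e] at e''
    refine ⟨⟨a⁻¹ * c * b, mul_mem (mul_mem (inv_mem ha) hc) hb⟩, ⟨a⁻¹ * c' * b', mul_mem (mul_mem (inv_mem ha) hc') hb1⟩,
      Subtype.ext ?_⟩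
    simp only [Subgroup.coe_mul, Subgroup.coe_inv]
    rw [show (g : G) = a⁻¹ * (a * g * a⁻¹) * a by group, e'']; group
  have hL := S.H_le_L {R.j} hz'
  rcases h5 M hM with ⟨P1, P2, e1, e2, e3, e4, e5⟩ | ⟨rfl, P1, P2, e1, e2, e3, e4, e5⟩
  · obtain ⟨g1, q1⟩ := R.exists_rep (P := P1) (e2 ▸ d.ne_zero)
    have e6 : ((d : k) • P2).det = d := by rw [Matrix.det_smul, e4]; simp [pow_two]
    obtain ⟨g2, q2⟩ := R.exists_rep (e6 ▸ d.ne_zero)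
    have q3 := q2.conj_n
    rw [e6, smul_smul, inv_mul_cancel₀ d.ne_zero, one_smul] at q3
    obtain ⟨b, hb, e7, e8⟩ := k1 q2 e6 (by rw [Matrix.trace_smul, e5, smul_eq_mul]; field_simp)
    have e9 : R.n * (g2 * z) * R.n⁻¹ = z⁻¹ * (R.n * g2 * R.n⁻¹) := by
      rw [q3.comm (inv_mem hz') (by rw [Sys.chi_inv hz', h1, inv_one]), ← one_mul z⁻¹, ← S.h_one (C.sp R.j), ← h1,
        ← R.n_conj_H hz']; group
    refine k2 (mul_mem q1.mem_L hL) (mul_mem (inv_mem hL) q3.mem_L) (k1 q1 e2 e3)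
      ⟨R.n * b, mul_mem R.nK hb, by rw [← e9, e7]; group, e9 ▸ e8.conj fun u => R.n_swap⟩ ?_
    rw [(R.rep_f M).unique (e1 ▸ q1.mul q3)]; group
  · obtain ⟨g1, q1⟩ := R.exists_rep (P := P1) (e2 ▸ d.ne_zero)
    obtain ⟨g2, q2⟩ := R.exists_rep (P := P2) (e4 ▸ d.ne_zero)
    exact k2 (mul_mem q1.mem_L hL) (mul_mem q2.mem_L hL) (k1 q1 e2 e3) (k1 q2 e4 e5)
      (by rw [(R.rep_f M).unique (e1 ▸ q1.mul q2), mul_one, mul_one])

end LL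

end Cfsg.Agent.Chev
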