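import Cfsg.Agent.Chev.Gauss4
import Cfsg.Agent.Chev.Over3
import Cfsg.Agent.Chev.Over5

/-!
Squares of semisimple classes in the groups of type `G₂`.
-/

set_option autoImplicit false
set_option linter.unusedSimpArgs false
set_option linter.unusedVariables false

namespace Cfsg.Agent.Chev

open Cfsg.Lie Cfsg.Lie.ChevalleyDatum Equiv Tw SL2 Stein
open scoped MatrixGroups

attribute [-simp] zsmul_eq_mul nsmul_eq_mul

section
variable {D : ChevalleyDatum} {C : Cert D} {F : Type*} [Field F] {G : Type*} [Group G] {S : Sys C F G}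

theorem Sys.gd_of {K : Subgroup G} {m a b : G} {w : Perm (Rt D)} (hm : m ∈ K) (hm' : S.Over m w) (ha : a ∈ K)
    (ha' : a ∈ S.Up) (hb : b ∈ K) (hb' : b ∈ S.Um) (h : S.Over (a * b * a) w) : S.Gd K m (m * (a * b * a)⁻¹) := by
  have h1 : S.Gd K (a * b * a) 1 := ⟨one_mem _, one_mem _, a⁻¹, inv_mem ha, inv_mem ha', b, hb, hb', a, ha, ha', by group⟩
  have := h1.H_mul (mul_mem hm (inv_mem (mul_mem (mul_mem ha hb) ha))) (hm'.mul_inv_mem_H h)
  rwa [inv_mul_cancel_right, mul_one] at this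

theorem xi_mem_UJ (S : Sys C F G) {J : Set (Nd D)} {r : ℕ} (h : ∃ h : r < D.nroots, ∃ i, i ∉ J ∧ 0 < C.rc ⟨r, h⟩ i)
    (t : F) : xi S r t ∈ S.UJ J := by
  obtain ⟨h, i, hi, h1⟩ := h
  exact xi_mem S (fun _ => And.intro (Cert.pos_of_coord_pos h1) fun h2 => h1.ne' (h2 i hi)) t

theorem xi_mem_QM (S : Sys C F G) {J : Set (Nd D)} {r : ℕ} (h : ∃ h : r < D.nroots, ∃ i, i ∉ J ∧ C.rc ⟨r, h⟩ i < 0)
    (t : F) : xi S r t ∈ S.QM J := by
  obtain ⟨h, i, hi, h1⟩ := h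
  exact xi_mem S (fun _ => And.intro (fun h2 => (h2 i).not_gt h1) fun h2 => h1.ne (h2 i hi)) t

theorem Cert.eq_w0_ss (h0 : ∀ r, C.w0 Set.univ r = r.rev) {w : Perm (Rt D)} (hw : w ∈ C.Aut) {j : Nd D}
    (h : ∀ i, C.rc (w (C.sp i)) = C.A (C.sp j) (C.sp i) • C.rc (C.sp j) - C.rc (C.sp i)) :
    w = C.w0 Set.univ * C.ss j :=
  Cert.Aut.eq_of_sp hw (mul_mem (C.w0_mem_Aut _) (C.ss_mem_Aut j)) fun i => C.rc_inj (by
    rw [h, Perm.mul_apply, h0, C.rc_neg, C.ss_apply, C.rc_refl, neg_sub])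

theorem Sys.n_comm {r : Rt D} {z : G} (h1 : ∀ t, S.x r t * z = z * S.x r t) (h2 : ∀ t, S.x r.rev t * z = z * S.x r.rev t)
    (t : Fˣ) : S.n r t * z = z * S.n r t :=
  ((show Commute _ _ from h1 _).mul_left (h2 _)).mul_left (h1 _)

theorem xi_swap1 (S : Sys C F G) {r s v : ℕ} {n : ℤ} (h : r < D.nroots ∧ s < D.nroots ∧ s ≠ r ∧ s + r + 1 ≠ D.nroots ∧
    D.commTerms r s = [(v, n, 1, 1)]) (t u : F) (g : G) :
    xi S s u * (xi S r t * g) = xi S r t * (xi S s u * (xi S v (-(n * t * u)) * g)) := by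
  rw [← mul_assoc, xi_swap S h]; simp [wd_cons, wd_nil, mul_assoc]

variable {k : Type*} [Field k] (R : LL S k) [Finite F] [Finite R.K] (p : ℕ) [Fact p.Prime] [CharP F p]
  (h1 : ∀ s, C.A (C.sp R.j) s = 0 → C.A R.θ s = 1 ∨ C.A R.θ s = -1)
  (h2 : ∀ s, C.A (C.sp R.j) s = -1 → C.A R.θ s = 0 ∨ C.A R.θ s = 1 ∨ C.A R.θ s = -1 ∨ C.A R.θ s = -2)
include h1 h2

theorem LL.cover_one (d : kˣ) (c : k) (h3 : (d + (1 + c) : k) ^ 2 ≠ 4 * d) (h4 : (d : k) ≠ 1) (h5 : c ≠ 0)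
    (h6 : (1 - d : k) * (1 - d * d) ≠ c * d) (h7 : ∀ M : SL(2, k), ((2 : k) = 0 → M = 1 ∨ M.1.trace ≠ 0) →
      Fac (d : k) (d + (1 + c)) d⁻¹ ((d + (1 + c)) * (d : k)⁻¹) M.1 ∨ Fac (d : k) (d + (1 + c)) d (d + (1 + c)) M.1) :
    ∃ x : R.K, ¬ p ∣ orderOf x ∧ ∀ g : R.K, g ≠ 1 → ∃ u v : R.K, g = u * x * u⁻¹ * (v * x * v⁻¹) := by
  have e : ∀ s, (S.chi (R.τ d * 1) s : F) = R.ι (d ^ C.A R.θ s) := fun s => by
    rw [mul_one, LL.τ, Sys.chi_h]; simp
  have h0 := d.ne_zero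
  refine R.cover p (one_mem _) (one_mem _) (Sys.chi_one _) d c h3 (fun s _ hs h => ?_) (fun s hs h => ?_)
    fun M hM => (h7 M hM).imp_right fun h => ⟨rfl, h⟩
  · have := e s
    rw [h, Units.val_one, eq_comm, map_eq_one_iff _ R.ι.injective] at this
    rcases h1 s hs with h | h <;> rw [h] at this <;> exact h4 (by simpa using this)
  · rw [e, ← map_one R.ι, ← map_mul, ← map_mul, ← map_sub, ← map_sub, ← map_mul, R.ι.injective.eq_iff] at h
    rcases h2 s hs with h' | h' | h' | h' <;> rw [h'] at h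
    · exact h5 (by simpa using h.symm)
    · exact h6 (by simpa using h)
    · exact h5 (by simpa [h0] using h.symm)
    · exact h6 (by rw [zpow_neg, zpow_ofNat] at h; field_simp at h; linear_combination h)

theorem LL.cover_odd (h : (2 : k) ≠ 0) :
    ∃ x : R.K, ¬ p ∣ orderOf x ∧ ∀ g : R.K, g ≠ 1 → ∃ u v : R.K, g = u * x * u⁻¹ * (v * x * v⁻¹) := by
  have := Finite.of_injective _ R.ι.injective
  refine R.cover_one p h1 h2 (-1) 2 (fun e => mul_ne_zero h (mul_ne_zero h h) ?_) (fun e => h ?_) h (fun e => h ?_)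
    fun M _ => ?_
  · simp only [Units.val_neg, Units.val_one] at e; linear_combination e
  · simp only [Units.val_neg, Units.val_one] at e; linear_combination -e
  · simp only [Units.val_neg, Units.val_one] at e; linear_combination e
  · rw [Units.val_neg, Units.val_one, show (-1 : k) + (1 + 2) = 2 by ring]; exact fac_odd h M

end

section G2

variable {F : Type*} [Field F] {G : Type*} [Group G] (S : Sys certG2 F G)

theorem spG2 (h2 : (2 : F) = 0) (c s : F) : ∃ v ∈ S.QM {nG 1}, ∃ u ∈ S.UJ {nG 1},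
    S.x (rG 11) s * S.x (rG 2) c = v * S.x (rG 6) (s ^ 2 * c ^ 3) * u := by
  have h3 : ∀ r ∈ [2, 4, 1], ∀ t, xi S r t ∈ S.QM {nG 1} := fun r hr =>
    xi_mem_QM S (by revert r; simp only [Set.mem_singleton_iff, certG2_rc]; decide +kernel)
  have h4 : ∀ r ∈ [11, 8], ∀ t, xi S r t ∈ S.UJ {nG 1} := fun r hr =>
    xi_mem_UJ S (by revert r; simp only [Set.mem_singleton_iff, certG2_rc]; decide +kernel)
  refine ⟨xi S 2 c * (xi S 4 (-(c ^ 2 * s)) * xi S 1 (c ^ 3 * s)), mul_mem (h3 _ (by simp) _)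
    (mul_mem (h3 _ (by simp) _) (h3 _ (by simp) _)), xi S 11 s * xi S 8 (c * s),
    mul_mem (h4 _ (by simp) _) (h4 _ (by simp) _), ?_⟩
  change xi S 11 s * xi S 2 c = _ * xi S 6 _ * _
  rw [xi_swap S (L := [(8, -1, 1, 1), (4, -1, 2, 1), (1, -1, 3, 1), (6, -1, 3, 2)]) (by decide +kernel)]
  simp only [List.map, wd_cons, wd_nil, mul_assoc]
  rw [xi_swap1 S (r := 4) (s := 8) (v := 6) (n := -3) (by decide +kernel), xi_comm S (r := 4) (s := 11) (by decide +kernel),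
    xi_comm S (r := 1) (s := 6) (by decide +kernel), xi_comm S (r := 1) (s := 8) (by decide +kernel),
    xi_swap1 S (r := 1) (s := 11) (v := 6) (n := -1) (by decide +kernel), xi_add', xi_comm S (r := 6) (s := 8) (by decide +kernel),
    xi_add', xi_comm S (r := 6) (s := 11) (by decide +kernel), mul_one]
  refine xi_congr rfl (xi_congr (by ring) (xi_congr (by ring) (xi_congr ?_ (xi_congr rfl (congrArg _ (by ring))))))
  push_cast
  linear_combination (- c ^ 3 * s ^ 2) * h2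

variable {S} (hφ : Function.Injective S.φ)
include hφ

theorem eq_hG2 {a : G} (ha : a ∈ S.H) (h : S.chi a (rG 9) = 1) : ∃ t, a = S.h (certG2.sp (nG 1)) t := by
  have h1 := Sys.isChar_chi ha
  have h2 := h1.2 (rG 7) (rG 8) (rG 9) (by simp only [funext_iff, Pi.add_apply, certG2_rc]; decide +kernel)
  rw [h1.2 (rG 7) (rG 6) (rG 8) (by simp only [funext_iff, Pi.add_apply, certG2_rc]; decide +kernel), h] at h2
  refine ⟨(S.chi a (rG 7))⁻¹, S.eq_of_chi hφ ha (S.h_mem _ _) fun i => ?_⟩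
  rw [Sys.chi_h]
  obtain rfl | rfl : i = nG 0 ∨ i = nG 1 := by revert i; decide
  · rw [show certG2.A (certG2.sp (nG 1)) (certG2.sp (nG 0)) = -1 by rw [Cert.A_def]; decide +kernel]
    simp only [zpow_neg, zpow_one, inv_inv]; rfl
  · rw [Cert.A_self, zpow_ofNat, inv_pow, eq_inv_iff_mul_eq_one, h2, pow_two, mul_comm, mul_assoc]; rfl

/-- the long root Levi factor of `G₂` -/
noncomputable def llG2 [Finite F] : LL S F where
  T := Stb.one S
  K := ⊤
  bn := ⟨Stb.good_one, fun i => ⟨S.x (certG2.sp i) 1, ⟨S.x_mem_U (And.intro (certG2.pos_sp i)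
    (certG2.inJ_sp.2 (Stb.mem_orb _ i))) 1, trivial⟩, fun h => one_ne_zero (S.x_eq_one_iff.1 h)⟩⟩
  inj := hφ
  j := nG 1
  πj := rfl
  two i i' h h' := by
    rw [Sys.orb_one, Set.mem_singleton_iff]
    revert i i'; decide
  lng := by simp only [certG2_len]; decide +kernel
  w0 := w0G2
  ι := RingHom.id F
  mem_x t := by simp
  mem_y t := by simp
  lead r h h' := ⟨S.x r 1, trivial, S.x_mem_UJ h h' 1, S.x_mem_U (certG2.lev_empty r).ge 1, by
    rw [S.cd_x_self]; exact one_ne_zero⟩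
  θ := rG 11
  hθ := by rw [Cert.A_def]; decide +kernel
  θK _ := trivial
  n := S.n (rG 9) 1
  nK := trivial
  n_over := Cert.eq_w0_ss w0G2 (certG2.sr_mem_Aut (rG 9)) (j := nG 1) (by
    simp only [Cert.sr_apply, Cert.rc_refl, funext_iff, Pi.sub_apply, Pi.smul_apply, certG2_rc, Cert.A_def]
    decide +kernel) ▸ S.over_n _ _
  n_x t := Sys.n_comm (fun u => S.commute_of_N (by decide +kernel) (by rw [Cert.N_def]; decide +kernel) _ _)
    (fun u => S.commute_of_N (by decide +kernel) (by rw [Cert.N_def]; decide +kernel) _ _) _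
  n_y t := Sys.n_comm (fun u => S.commute_of_N (by decide +kernel) (by rw [Cert.N_def]; decide +kernel) _ _)
    (fun u => S.commute_of_N (by decide +kernel) (by rw [Cert.N_def]; decide +kernel) _ _) _
  r1 i hi m hm hm' := by
    obtain rfl : i = nG 0 := by clear hm'; revert i; decide
    rw [Sys.orb_one, Sys.w0_single] at hm'
    have h1 := hm'.mul_inv_mem_H (S.over_ns _ 1)
    have h2 := Sys.gd_of (K := ⊤) hm hm' trivial (S.x_mem_Up (certG2.pos_sp _) _) trivial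
      (S.x_mem_Um (certG2.not_pos_rev (certG2.pos_sp _)) _) (S.over_ns _ (S.chi (m * (S.n (certG2.sp (nG 0)) 1)⁻¹) (rG 9)))
    obtain ⟨t, ht⟩ := eq_hG2 hφ h2.2.1 (by
      change S.chi (m * (S.n _ _)⁻¹) _ = 1
      rw [S.n_eq_h_mul, mul_inv_rev, ← mul_assoc, Sys.chi_mul h1 (inv_mem (S.h_mem _ _)), Sys.chi_inv (S.h_mem _ _),
        Sys.chi_h, show certG2.A (certG2.sp (nG 0)) (rG 9) = 1 by rw [Cert.A_def]; decide +kernel, zpow_one,
        mul_inv_cancel])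
    exact ⟨t, by rw [ht] at h2; simpa using h2⟩
  sp h2 m hm hm' := by
    rw [← Cert.eq_w0_ss w0G2 (certG2.sr_mem_Aut (rG 9)) (j := nG 1) (by
      simp only [Cert.sr_apply, Cert.rc_refl, funext_iff, Pi.sub_apply, Pi.smul_apply, certG2_rc, Cert.A_def]
      decide +kernel)] at hm'
    have h1 := hm'.mul_inv_mem_H (S.over_n _ 1)
    obtain ⟨s, hs⟩ := exists_sq_of_two h2 (S.chi (m * (S.n (rG 9) 1)⁻¹) (rG 9))
    have h0 : s ≠ 0 := by rintro rfl; exact Units.ne_zero _ (hs.symm.trans (zero_pow two_ne_zero))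
    obtain ⟨s, rfl⟩ : ∃ s' : Fˣ, s' = s := ⟨Units.mk0 s h0, rfl⟩
    obtain ⟨t, ht⟩ := eq_hG2 hφ (hm'.mul_inv_mem_H (S.over_n _ s)) (by
      rw [S.n_eq_h_mul, mul_inv_rev, ← mul_assoc, Sys.chi_mul h1 (inv_mem (S.h_mem _ _)), Sys.chi_inv (S.h_mem _ _),
        Sys.chi_h, Cert.A_self, mul_inv_eq_one]
      exact Units.ext (by rw [← hs]; simp [zpow_ofNat]))
    refine ⟨t, fun c => ?_⟩
    obtain ⟨e, he⟩ := exists_sq_of_two h2 (c * (s ^ 3 / t ^ 2))
    obtain ⟨v, hv, u, hu, h3⟩ := spG2 S h2 (-(s⁻¹ : Fˣ)) e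
    have h4 : ∀ r ∈ [rG 11, rG 9], ∀ t, S.x r t ∈ S.UJ {nG 1} := fun r hr t =>
      xi_val S r t ▸ xi_mem_UJ S (by revert r; simp only [Set.mem_singleton_iff, certG2_rc]; decide +kernel) t
    have h5 := S.h_mem (certG2.sp (nG 1)) t
    refine ⟨_, trivial, Sys.H_conj_U h5 (mul_mem (h4 (rG 11) (by simp) e) (inv_mem (h4 (rG 9) (by simp) s))),
      _, Sys.H_conj_U h5 hv, _, mul_mem hu (h4 (rG 9) (by simp) s), ?_⟩
    have h6 := S.h_conj_x (certG2.sp (nG 1)) t (certG2.sp (nG 1)) (e ^ 2 * (-(s⁻¹ : Fˣ)) ^ 3)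
    rw [Cert.A_self, show ((t ^ (2 : ℤ) : Fˣ) : F) * (e ^ 2 * (-(s⁻¹ : Fˣ)) ^ 3) = c by
      rw [he]; simp only [zpow_ofNat, Units.val_pow_eq_pow_val, Units.val_inv_eq_inv_val]; field_simp
      linear_combination - c * h2] at h6
    rw [mul_inv_eq_iff_eq_mul.1 ht, RingHom.id_apply, ← h6, Sys.n, show Units.map (RingHom.id F : F →* F) t = t from rfl]
    calc _ = S.h (certG2.sp (nG 1)) t * (S.x (rG 11) e * S.x (rG 2) (-(s⁻¹ : Fˣ))) * S.x (rG 9) s := by
          rw [show rG 2 = (rG 9).rev from rfl]; group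
      _ = _ := by rw [h3, show rG 6 = certG2.sp (nG 1) from rfl]; group

theorem coverG2 [Finite F] [Finite G] (p : ℕ) [Fact p.Prime] [CharP F p] (h3 : 3 ≤ Nat.card F) :
    ∃ x : G, ¬ p ∣ orderOf x ∧ ∀ g : G, g ≠ 1 → ∃ u v : G, g = u * x * u⁻¹ * (v * x * v⁻¹) := by
  have k1 : ∀ s, certG2.A (certG2.sp (nG 1)) s = 0 → certG2.A (rG 11) s = 1 ∨ certG2.A (rG 11) s = -1 := by
    simp only [Cert.A_def]; decide +kernel
  have k2 : ∀ s, certG2.A (certG2.sp (nG 1)) s = -1 → certG2.A (rG 11) s = 0 ∨ certG2.A (rG 11) s = 1 ∨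
      certG2.A (rG 11) s = -1 ∨ certG2.A (rG 11) s = -2 := by
    simp only [Cert.A_def]; decide +kernel
  obtain ⟨x, hx, h⟩ : ∃ x : (llG2 hφ).K, ¬ p ∣ orderOf x ∧ ∀ g : (llG2 hφ).K, g ≠ 1 →
      ∃ u v : (llG2 hφ).K, g = u * x * u⁻¹ * (v * x * v⁻¹) := by
    by_cases h2 : (2 : F) = 0
    swap
    · exact (llG2 hφ).cover_odd p k1 k2 h2
    obtain ⟨d, h0, h1, h4⟩ : ∃ d : F, d ≠ 0 ∧ d ≠ 1 ∧ d ^ 3 + d + 1 ≠ 0 := by
      obtain ⟨d, h0, h1⟩ : ∃ d : F, d ≠ 0 ∧ d ≠ 1 := by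
        by_contra h
        push Not at h
        have : Nat.card F ≤ Nat.card ({0, 1} : Set F) := Nat.card_le_card_of_surjective Subtype.val fun x =>
          ⟨⟨x, (em _).imp_right (h x)⟩, rfl⟩
        have := this.trans (Set.ncard_insert_le 0 {1})
        simp at this; omega
      by_cases h4 : d ^ 3 + d + 1 = 0
      · refine ⟨d + 1, fun h => h1 (by linear_combination h - h2), by simpa using h0, fun h => ?_⟩
        exact mul_ne_zero h0 (sub_ne_zero.2 h1) (by linear_combination h - h4 - (d ^ 2 + 2 * d + 1) * h2)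
      · exact ⟨d, h0, h1, h4⟩
    refine (llG2 hφ).cover_one p k1 k2 (Units.mk0 d h0) (-d) (fun e => ?_) h1 (neg_ne_zero.2 h0) (fun e => h4 ?_)
      fun M hM => Or.inl (fac_even h2 h0 _ (hM h2))
    · simp only [Units.val_mk0] at e
      exact one_ne_zero (α := F) (by linear_combination e + 2 * d * h2)
    · simp only [Units.val_mk0] at e
      linear_combination e + d * h2
  refine ⟨x, by rwa [Subgroup.orderOf_coe], fun g hg => ?_⟩
  obtain ⟨u, v, e⟩ := h ⟨g, trivial⟩ fun e => hg (congrArg Subtype.val e)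
  exact ⟨u, v, congrArg Subtype.val e⟩

end G2

end Cfsg.Agent.Chev
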