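import Cfsg.Agent.Chev.Gauss5
import Cfsg.Agent.Tw.Eqv

/-!
Squares of semisimple classes in the triality groups.
-/

set_option autoImplicit false
set_option linter.unusedSimpArgs false
set_option linter.unusedVariables false

namespace Cfsg.Agent.Chev

open Cfsg.Lie Cfsg.Lie.ChevalleyDatum Equiv Tw SL2 Stein Forms
open scoped MatrixGroups

attribute [-simp] zsmul_eq_mul nsmul_eq_mul

theorem sand_mul {G : Type*} [Group G] {a b c d : G} (h1 : Commute a c) (h2 : Commute a d) (h3 : Commute b c)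
    (h4 : Commute b d) : a * c * (b * d) * (a * c) = a * b * a * (c * d * c) := by
  rw [mul_assoc a c, ← mul_assoc c b, ← h3.eq, mul_assoc (a * b) a, ← mul_assoc a (c * d), (h1.mul_right h2).eq]
  group

section
variable {D : ChevalleyDatum} {C : Cert D} {F : Type*} [Field F] {G : Type*} [Group G] (S : Sys C F G)

/-- strongly orthogonal roots -/
def SO (D : ChevalleyDatum) (r s : Rt D) : Prop := s ≠ r ∧ s ≠ r.rev ∧ Nc D r s = 0 ∧ Nc D r s.rev = 0 ∧
  Nc D r.rev s = 0 ∧ Nc D r.rev s.rev = 0 ∧ D.pairing r s = 0 ∧ D.pairing s r = 0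

instance instDecidableSO (r s : Rt D) : Decidable (SO D r s) := by unfold SO; infer_instance

theorem Sys.Gd.of_eq' {S : Sys C F G} {K : Subgroup G} {m a b : G} (h : S.Gd K m a) (e : a = b) : S.Gd K m b := e ▸ h

theorem SO.comm {r s : Rt D} (h : SO D r s) (t u : F) : Commute (S.x r t) (S.x s u) ∧ Commute (S.x r t) (S.x s.rev u) ∧
    Commute (S.x r.rev t) (S.x s u) ∧ Commute (S.x r.rev t) (S.x s.rev u) :=
  ⟨S.commute_of_N h.2.1 h.2.2.1 t u, S.commute_of_N (fun e => h.1 (Fin.rev_injective e)) h.2.2.2.1 t u,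
    S.commute_of_N (by rw [Fin.rev_rev]; exact h.1) h.2.2.2.2.1 t u,
    S.commute_of_N (by rw [Fin.rev_rev]; exact fun e => h.2.1 (by rw [← e, Fin.rev_rev])) h.2.2.2.2.2.1 t u⟩

theorem SO.n_x {r s : Rt D} (h : SO D r s) (t : Fˣ) (u : F) :
    Commute (S.n r t) (S.x s u) ∧ Commute (S.n r t) (S.x s.rev u) :=
  ⟨Sys.n_comm (fun _ => (h.comm S _ _).1) (fun _ => (h.comm S _ _).2.2.1) t,
    Sys.n_comm (fun _ => (h.comm S _ _).2.1) (fun _ => (h.comm S _ _).2.2.2) t⟩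

variable {r s u : Rt D} (h1 : SO D r s) (h2 : SO D r u) (h3 : SO D s u)
include h1 h2 h3

theorem three_n (a b c : Fˣ) : S.x r a * S.x s b * S.x u c * (S.x r.rev (-(a⁻¹ : Fˣ)) * S.x s.rev (-(b⁻¹ : Fˣ)) *
    S.x u.rev (-(c⁻¹ : Fˣ))) * (S.x r a * S.x s b * S.x u c) = S.n r a * S.n s b * S.n u c := by
  rw [sand_mul ((h2.comm S _ _).1.mul_left (h3.comm S _ _).1) ((h2.comm S _ _).2.1.mul_left (h3.comm S _ _).2.1)
    ((h2.comm S _ _).2.2.1.mul_left (h3.comm S _ _).2.2.1) ((h2.comm S _ _).2.2.2.mul_left (h3.comm S _ _).2.2.2),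
    sand_mul (h1.comm S _ _).1 (h1.comm S _ _).2.1 (h1.comm S _ _).2.2.1 (h1.comm S _ _).2.2.2]
  rfl

omit h1 h2 h3 in
theorem three_over (r s u : Rt D) (a b c : Fˣ) : S.Over (S.n r a * S.n s b * S.n u c) (C.sr r * C.sr s * C.sr u) :=
  ((S.over_n _ _).mul (S.over_n _ _)).mul (S.over_n _ _)

theorem three_chi (hφ : Function.Injective S.φ) {m : G} (hm : S.Over m (C.sr r * C.sr s * C.sr u)) (a b c : Fˣ)
    (v : Rt D) : S.chi (m * (S.n r a * S.n s b * S.n u c)⁻¹) v =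
      S.chi (m * (S.n r 1 * S.n s 1 * S.n u 1)⁻¹) v * (a ^ C.A r v * b ^ C.A s v * c ^ C.A u v)⁻¹ := by
  have e : S.n r a * S.n s b * S.n u c = S.h r a * S.h s b * S.h u c * (S.n r 1 * S.n s 1 * S.n u 1) := by
    rw [S.n_eq_h_mul r, S.n_eq_h_mul s, S.n_eq_h_mul u]
    simp only [mul_assoc]
    rw [n_mul_h hφ h1.2.2.2.2.2.2.2, n_mul_h hφ h3.2.2.2.2.2.2.2, n_mul_h hφ h2.2.2.2.2.2.2.2]
  have k1 := mul_mem (S.h_mem r a) (S.h_mem s b)
  have k2 := mul_mem k1 (S.h_mem u c)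
  rw [e, mul_inv_rev, ← mul_assoc, Sys.chi_mul (hm.mul_inv_mem_H (three_over S r s u 1 1 1)) (inv_mem k2),
    Sys.chi_inv k2, Sys.chi_mul k1 (S.h_mem _ _), Sys.chi_mul (S.h_mem _ _) (S.h_mem _ _), Sys.chi_h, Sys.chi_h, Sys.chi_h]

omit S in
theorem three_rc (v : Rt D) : C.rc ((C.sr r * C.sr s * C.sr u) v) =
    C.rc v - C.A u v • C.rc u - C.A s v • C.rc s - C.A r v • C.rc r := by
  have k : ∀ {a b : Rt D}, SO D a b → ∀ v, C.A a (C.refl b v) = C.A a v := fun {a b} h v => by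
    rw [← C.pr_rc, C.rc_refl, C.pr_sub, C.pr_smul, C.pr_rc, C.pr_rc, C.A_def _ b, h.2.2.2.2.2.2.1]; simp
  simp only [Perm.mul_apply, C.sr_apply]
  rw [C.rc_refl, k h1, k h2, C.rc_refl, k h3, C.rc_refl]

end

theorem spD4 {F : Type*} [Field F] {G : Type*} [Group G] (S : Sys certD4 F G) (s a b c : F) :
    ∃ v ∈ S.QM {ndD 1}, ∃ u ∈ S.UJ {ndD 1}, S.x (rtD 23) s * (S.x (rtD 2) a * S.x (rtD 6) b * S.x (rtD 3) c) =
      v * S.x (rtD 14) (-(s ^ 2 * (a * b * c))) * u := by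
  have h3 : ∀ r ∈ [2, 6, 10, 3, 11, 5], ∀ t, xi S r t ∈ S.QM {ndD 1} := fun r hr =>
    xi_mem_QM S (by revert r; simp only [Set.mem_singleton_iff, certD4_rc]; decide +kernel)
  have h4 : ∀ r ∈ [23, 16, 19, 15], ∀ t, xi S r t ∈ S.UJ {ndD 1} := fun r hr =>
    xi_mem_UJ S (by revert r; simp only [Set.mem_singleton_iff, certD4_rc]; decide +kernel)
  refine ⟨xi S 2 a * (xi S 6 b * (xi S 10 (-(s * a * b)) * (xi S 3 c * (xi S 11 (-(s * b * c)) * xi S 5 (s * a * c))))),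
    mul_mem (h3 _ (by simp) _) (mul_mem (h3 _ (by simp) _) (mul_mem (h3 _ (by simp) _) (mul_mem (h3 _ (by simp) _)
      (mul_mem (h3 _ (by simp) _) (h3 _ (by simp) _))))),
    xi S 23 s * (xi S 16 (-(s * c)) * (xi S 19 (-(s * b)) * xi S 15 (-(s * a)))),
    mul_mem (h4 _ (by simp) _) (mul_mem (h4 _ (by simp) _) (mul_mem (h4 _ (by simp) _) (h4 _ (by simp) _))), ?_⟩
  change xi S 23 s * (xi S 2 a * xi S 6 b * xi S 3 c) = _ * xi S 14 _ * _
  rw [← mul_one (xi S 3 c), ← mul_one (xi S 15 _)]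
  simp only [mul_assoc]
  rw [xi_swap1 S (r := 2) (s := 23) (v := 15) (n := 1) (by decide +kernel),
    xi_swap1 S (r := 6) (s := 15) (v := 10) (n := -1) (by decide +kernel),
    xi_swap1 S (r := 6) (s := 23) (v := 19) (n := 1) (by decide +kernel),
    xi_comm S (r := 10) (s := 15) (by decide +kernel),
    xi_comm S (r := 10) (s := 19) (by decide +kernel),
    xi_comm S (r := 10) (s := 23) (by decide +kernel),
    xi_swap1 S (r := 3) (s := 15) (v := 5) (n := 1) (by decide +kernel),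
    xi_swap1 S (r := 3) (s := 19) (v := 11) (n := -1) (by decide +kernel),
    xi_swap1 S (r := 3) (s := 23) (v := 16) (n := 1) (by decide +kernel),
    xi_comm S (r := 11) (s := 19) (by decide +kernel),
    xi_comm S (r := 11) (s := 16) (by decide +kernel),
    xi_comm S (r := 11) (s := 23) (by decide +kernel),
    xi_comm S (r := 5) (s := 15) (by decide +kernel),
    xi_swap1 S (r := 5) (s := 19) (v := 14) (n := -1) (by decide +kernel),
    xi_comm S (r := 5) (s := 16) (by decide +kernel),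
    xi_comm S (r := 5) (s := 23) (by decide +kernel),
    xi_comm S (r := 14) (s := 19) (by decide +kernel),
    xi_comm S (r := 14) (s := 16) (by decide +kernel),
    xi_comm S (r := 14) (s := 23) (by decide +kernel), one_mul]
  refine xi_congr rfl (xi_congr rfl (xi_congr (by ring) (xi_congr rfl (xi_congr (by ring) (xi_congr (by ring)
    (xi_congr (by ring) (xi_congr rfl (xi_congr (by ring) (xi_congr (by ring) (xi_congr (by ring) rfl))))))))))

section D4

variable {F : Type*} [Field F] [Finite F] {φ : F ≃+* F} {q : ℕ} (hφ : ∀ t, φ t = t ^ q) (hF : Nat.card F = q ^ 3)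

local notation "SD" => certD4.sys F
local notation "KD" => gen (certD4.sys F) (d4Words F q)
local notation "φu" => Units.map (φ : F →* F)
local notation "kD" => RingHom.eqLocusField (φ : F →+* F) (RingHom.id F)
local notation "ιu" => Units.map ((Subfield.subtype kD : kD →+* F) : kD →* F)

include hφ hF

theorem tD4 (t : F) : (SD).x (rtD 18) t * (SD).x (rtD 13) (φ t) * (SD).x (rtD 12) (φ (φ t)) ∈ KD ∧
    (SD).x (rtD 18).rev t * (SD).x (rtD 13).rev (φ t) * (SD).x (rtD 12).rev (φ (φ t)) ∈ KD ∧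
    (SD).x (rtD 21) t * (SD).x (rtD 17) (-φ t) * (SD).x (rtD 20) (φ (φ t)) ∈ KD ∧
    (SD).x (rtD 21).rev t * (SD).x (rtD 17).rev (-φ t) * (SD).x (rtD 20).rev (φ (φ t)) ∈ KD := by
  have k : ∀ (r s u : Rt chevD4) (e : ℤ), (triD4.ρ r = s ∧ triD4.ρ s = u ∧ triD4.ε r = e ∧ triD4.ε s = e) →
      (SD).x r t * (SD).x s (e * φ t) * (SD).x u (e * φ (e * φ t)) ∈ KD := by
    rintro r _ _ _ ⟨rfl, rfl, rfl, h⟩
    have := ((lrD4 hφ hF).nm r t).2
    rwa [nmD4, h] at this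
  exact ⟨by simpa using k _ _ _ 1 (by decide +kernel), by simpa using k _ _ _ 1 (by decide +kernel),
    by simpa using k _ _ _ (-1) (by decide +kernel), by simpa using k _ _ _ (-1) (by decide +kernel)⟩

theorem mem_fixD4 {r : Rt chevD4} (h : triD4.ρ r = r) (t : F) :
    (SD).x r t ∈ KD ↔ ∃ s : (φ : F →+* F).eqLocusField (RingHom.id F), s = t := by
  refine ⟨fun h1 => ?_, ?_⟩
  · obtain ⟨s, hs, -⟩ := (lrD4 hφ hF).exists_X (g := ⟨_, h1⟩) h rfl
    exact ⟨s, hs⟩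
  · rintro ⟨s, rfl⟩
    exact (lrD4 hφ hF).X_coe h s ▸ ((lrD4 hφ hF).X r s).2

theorem eq_hD4 {a : chevD4.group F} (ha : a ∈ KD) (ha' : a ∈ (SD).H) (h : (SD).chi a (rtD 21) = 1) :
    ∃ t : (↥kD)ˣ,
      a = (SD).h (certD4.sp (ndD 1)) (ιu t) := by
  have k1 : ∀ r s, triD4.ρ r = s → ((SD).chi a s : F) = φ ((SD).chi a r) := by
    rintro r _ rfl
    have := congrArg Units.val ((stbD4 φ).chi_σ ha' r)
    rwa [(goodD4 hφ (frob3 hφ hF)).fix a ha] at this
  have k2 : ∀ r s u : Rt chevD4, (∀ i : Nd chevD4, rcD4 u i = rcD4 r i + rcD4 s i) → ((SD).chi a u : F) = (SD).chi a r * (SD).chi a s :=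
    fun r s u h => congrArg Units.val ((Sys.isChar_chi ha').2 r s u (funext h))
  have e1 := k1 (rtD 18) (rtD 13) (by decide +kernel)
  have e2 := k1 (rtD 13) (rtD 12) (by decide +kernel)
  have e3 := k1 (rtD 21) (rtD 17) (by decide +kernel)
  have e4 := k2 (rtD 18) (rtD 16) (rtD 21) (by decide +kernel)
  have e5 := k2 (rtD 12) (rtD 16) (rtD 17) (by decide +kernel)
  have e6 := k2 (rtD 13) (rtD 14) (rtD 16) (by decide +kernel)
  rw [h, Units.val_one] at e3 e4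
  rw [e3, map_one, e4, mul_left_inj' (Units.ne_zero _)] at e5
  have e7 : φ ((SD).chi a (rtD 18)) = (SD).chi a (rtD 18) := by
    conv_lhs => rw [e5, e2, e1, frob3 hφ hF]
  rw [e7] at e1
  refine ⟨(Units.mk0 ⟨_, e7⟩ fun h => Units.ne_zero _ (congrArg Subtype.val h))⁻¹,
    (SD).eq_of_chi (certD4.sys_φ_inj F) ha' ((SD).h_mem _ _) fun i => Units.ext ?_⟩
  rw [Sys.chi_h]
  obtain ⟨h1, h2⟩ | rfl : (certD4.A (certD4.sp (ndD 1)) (certD4.sp i) = -1 ∧ (certD4.sp i = rtD 18 ∨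
    certD4.sp i = rtD 13 ∨ certD4.sp i = rtD 12)) ∨ i = ndD 1 := by
      simp only [Cert.A_def]; revert i; decide +kernel
  · rw [h1]
    rcases h2 with h2 | h2 | h2 <;> simp [h2, e1, ← e5]
  · rw [Cert.A_self, show certD4.sp (ndD 1) = rtD 14 from rfl]
    rw [e6, e1] at e4
    simp only [zpow_ofNat, map_inv, Units.val_pow_eq_pow_val, Units.val_inv_eq_inv_val, Units.coe_map, Units.val_mk0,
      MonoidHom.coe_coe, Subfield.coe_subtype]
    field_simp
    linear_combination -e4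

omit hφ hF in
theorem surjD4 (h3 : ∀ t, φ (φ (φ t)) = t) (c : Fˣ) : ∃ s : Fˣ, s * φu s * (φu (φu s))⁻¹ = c := by
  let ψ : Fˣ →* Fˣ := MonoidHom.id _ * φu * ((φu).comp φu)⁻¹
  refine Finite.surjective_of_injective (f := ψ) ((injective_iff_map_eq_one ψ).2 fun s hs => Units.ext ?_) c
  have h1 : s * φ s = φ (φ s) := congrArg Units.val (mul_inv_eq_one.1 hs)
  have h2 := congrArg φ h1
  rw [map_mul, h3, ← h1] at h2
  have h4 : φ (s * s) = φ 1 := mul_left_cancel₀ s.ne_zero (by rw [map_mul, map_one]; linear_combination h2)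
  rcases mul_self_eq_one_iff.1 (φ.injective h4) with h | h
  · exact h
  · rw [h] at h1 ⊢
    simpa using h1.symm

omit hφ hF [Finite F] in
theorem w0D4_orb {i : Nd chevD4} (hi : i ≠ ndD 1) :
    certD4.w0 ((stbD4 φ).orb i) = certD4.sr (rtD 18) * certD4.sr (rtD 13) * certD4.sr (rtD 12) := by
  have h1 : ∀ j, j ∈ (stbD4 φ).orb i ↔ j ≠ ndD 1 := by
    change ∀ j, triD4.nodes.SameCycle i j ↔ _
    revert i; decide +kernel
  refine (Cert.eq_w0 (mul_mem (mul_mem (certD4.ss_mem_WJ (j := ndD 0) ((h1 _).2 (by decide)))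
    (certD4.ss_mem_WJ (j := ndD 2) ((h1 _).2 (by decide)))) (certD4.ss_mem_WJ (j := ndD 3) ((h1 _).2 (by decide))))
      fun j hj h => ?_).symm
  have : 0 ≤ certD4.rc ((certD4.sr (rtD 18) * certD4.sr (rtD 13) * certD4.sr (rtD 12)) (certD4.sp j)) := h
  replace this := this j
  rw [three_rc (by decide +kernel) (by decide +kernel) (by decide +kernel)] at this
  rw [h1] at hj
  clear h
  revert j
  simp only [Pi.sub_apply, Pi.smul_apply, Pi.zero_apply, certD4_rc, Cert.A_def]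
  decide +kernel

omit hφ hF [Finite F] in
theorem w0D4_ss : certD4.sr (rtD 21) * certD4.sr (rtD 17) * certD4.sr (rtD 20) =
    certD4.w0 Set.univ * certD4.ss (ndD 1) :=
  Cert.eq_w0_ss w0D4 (mul_mem (mul_mem (certD4.sr_mem_Aut _) (certD4.sr_mem_Aut _)) (certD4.sr_mem_Aut _)) (by
    simp only [three_rc (show SO chevD4 (rtD 21) (rtD 17) by decide +kernel)
      (show SO chevD4 (rtD 21) (rtD 20) by decide +kernel) (show SO chevD4 (rtD 17) (rtD 20) by decide +kernel),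
      funext_iff, Pi.sub_apply, Pi.smul_apply, certD4_rc, Cert.A_def]
    decide +kernel)

theorem nD4 (s : Fˣ) : (SD).n (rtD 21) s * (SD).n (rtD 17) (-φu s) * (SD).n (rtD 20) (φu (φu s)) ∈ KD := by
  rw [← three_n _ (by decide +kernel) (by decide +kernel) (by decide +kernel)]
  exact mul_mem (mul_mem (tD4 hφ hF s).2.2.1 (by simpa using (tD4 hφ hF (-(s⁻¹ : Fˣ))).2.2.2)) (tD4 hφ hF s).2.2.1

theorem r1D4 {i : Nd chevD4} (hi : i ≠ ndD 1) {m : chevD4.group F} (hm : m ∈ KD)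
    (hm' : (SD).Over m (certD4.w0 ((stbD4 φ).orb i))) : ∃ t : (↥kD)ˣ,
      (SD).Gd KD m ((SD).h (certD4.sp (ndD 1)) (ιu t)) := by
  rw [w0D4_orb hi] at hm'
  have s1 : SO chevD4 (rtD 18) (rtD 13) := by decide +kernel
  have s2 : SO chevD4 (rtD 18) (rtD 12) := by decide +kernel
  have s3 : SO chevD4 (rtD 13) (rtD 12) := by decide +kernel
  obtain ⟨s, hs⟩ := surjD4 (frob3 hφ hF) ((SD).chi (m * ((SD).n (rtD 18) 1 * (SD).n (rtD 13) 1 * (SD).n (rtD 12) 1)⁻¹) (rtD 21))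
  have p : ∀ r ∈ [rtD 18, rtD 13, rtD 12], certD4.Pos r := by simp only [Cert.pos_iff_val]; decide +kernel
  have e := three_n (SD) s1 s2 s3 s (φu s) (φu (φu s))
  have h0 := (tD4 hφ hF (-(s⁻¹ : Fˣ))).2.1
  rw [map_neg, map_neg, show φ (s⁻¹ : Fˣ) = ((φu s)⁻¹ : Fˣ) by simp, show φ ((φu s)⁻¹ : Fˣ) = ((φu (φu s))⁻¹ : Fˣ) by simp] at h0
  have h1 := three_over (SD) (rtD 18) (rtD 13) (rtD 12) s (φu s) (φu (φu s))
  rw [← e] at h1
  have h2 := Sys.gd_of hm hm' (tD4 hφ hF s).1 (mul_mem (mul_mem ((SD).x_mem_Up (p _ (by simp)) _)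
      ((SD).x_mem_Up (p _ (by simp)) _)) ((SD).x_mem_Up (p _ (by simp)) _))
    h0 (mul_mem (mul_mem ((SD).x_mem_Um (certD4.not_pos_rev (p _ (by simp))) _)
      ((SD).x_mem_Um (certD4.not_pos_rev (p _ (by simp))) _)) ((SD).x_mem_Um (certD4.not_pos_rev (p _ (by simp))) _))
    h1
  replace h2 := h2.of_eq' (congrArg (m * ·⁻¹) e)
  obtain ⟨t, ht⟩ := eq_hD4 hφ hF h2.1 h2.2.1 (by
    rw [three_chi _ s1 s2 s3 (certD4.sys_φ_inj F) hm', ← hs,
      show certD4.A (rtD 18) (rtD 21) = 1 by rw [Cert.A_def]; decide +kernel,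
      show certD4.A (rtD 13) (rtD 21) = 1 by rw [Cert.A_def]; decide +kernel,
      show certD4.A (rtD 12) (rtD 21) = -1 by rw [Cert.A_def]; decide +kernel]
    simp)
  exact ⟨t, ht ▸ h2⟩

theorem spD4' (h2 : (2 : (φ : F →+* F).eqLocusField (RingHom.id F)) = 0) {m : chevD4.group F} (hm : m ∈ KD)
    (hm' : (SD).Over m (certD4.w0 Set.univ * certD4.ss (ndD 1))) :
    ∃ t : (↥kD)ˣ, ∀ c : (φ : F →+* F).eqLocusField (RingHom.id F),
      ∃ y ∈ KD, y ∈ (SD).UJ {ndD 1} ∧ ∃ v ∈ (SD).QM {ndD 1}, ∃ u ∈ (SD).UJ {ndD 1}, y * m =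
        v * ((SD).x (certD4.sp (ndD 1)) c * (SD).h (certD4.sp (ndD 1)) (ιu t)) * u := by
  rw [← w0D4_ss] at hm'
  have s1 : SO chevD4 (rtD 21) (rtD 17) := by decide +kernel
  have s2 : SO chevD4 (rtD 21) (rtD 20) := by decide +kernel
  have s3 : SO chevD4 (rtD 17) (rtD 20) := by decide +kernel
  have h2' : (2 : F) = 0 := congrArg Subtype.val h2
  obtain ⟨s, hs⟩ := exists_sq_of_two h2'
    ((SD).chi (m * ((SD).n (rtD 21) 1 * (SD).n (rtD 17) 1 * (SD).n (rtD 20) 1)⁻¹) (rtD 21))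
  have h0 : s ≠ 0 := by rintro rfl; exact Units.ne_zero _ (hs.symm.trans (zero_pow two_ne_zero))
  obtain ⟨s, rfl⟩ : ∃ s' : Fˣ, s' = s := ⟨Units.mk0 s h0, rfl⟩
  obtain ⟨t, ht⟩ := eq_hD4 hφ hF (mul_mem hm (inv_mem (nD4 hφ hF s))) (hm'.mul_inv_mem_H (three_over _ _ _ _ _ _ _)) (by
    rw [three_chi _ s1 s2 s3 (certD4.sys_φ_inj F) hm', Cert.A_self,
      show certD4.A (rtD 17) (rtD 21) = 0 by rw [Cert.A_def]; decide +kernel,
      show certD4.A (rtD 20) (rtD 21) = 0 by rw [Cert.A_def]; decide +kernel, mul_inv_eq_one]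
    exact Units.ext (by rw [← hs]; simp [zpow_ofNat]))
  refine ⟨t, fun c => ?_⟩
  obtain ⟨e, he⟩ := exists_sq_of_two h2 (c * (⟨s * φ s * φ (φ s), show φ _ = _ by
    rw [map_mul, map_mul, frob3 hφ hF, RingHom.id_apply]; ring⟩ / t ^ 2))
  have he' : (e : F) ^ 2 = c * (s * φ s * φ (φ s) / (t : (φ : F →+* F).eqLocusField (RingHom.id F)) ^ 2) :=
    congrArg Subtype.val he
  obtain ⟨v, hv, u, hu, h3⟩ := spD4 (SD) e (-(s⁻¹ : Fˣ)) (-((-φu s)⁻¹ : Fˣ)) (-((φu (φu s))⁻¹ : Fˣ))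
  have h4 : ∀ r ∈ [rtD 23, rtD 21, rtD 17, rtD 20], ∀ t, (SD).x r t ∈ (SD).UJ {ndD 1} := fun r hr t =>
    xi_val (SD) r t ▸ xi_mem_UJ (SD) (by revert r; simp only [Set.mem_singleton_iff, certD4_rc]; decide +kernel) t
  have h7 := mul_mem (mul_mem (h4 (rtD 21) (by simp) s) (h4 (rtD 17) (by simp) (-φu s : Fˣ)))
    (h4 (rtD 20) (by simp) (φu (φu s)))
  generalize hb : ιu t = b at ht
  have h5 := (SD).h_mem (certD4.sp (ndD 1)) b
  have h8 := ht ▸ mul_mem hm (inv_mem (nD4 hφ hF s))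
  refine ⟨_, mul_mem (mul_mem h8 (mul_mem ((mem_fixD4 hφ hF (r := rtD 23) (by decide +kernel) e).2 ⟨e, rfl⟩)
    (inv_mem (tD4 hφ hF s).2.2.1))) (inv_mem h8), Sys.H_conj_U h5 (mul_mem (h4 (rtD 23) (by simp) e) (inv_mem h7)),
    _, Sys.H_conj_U h5 hv, _, mul_mem hu h7, ?_⟩
  have h6 := (SD).h_conj_x (certD4.sp (ndD 1)) b (certD4.sp (ndD 1))
    (-(e ^ 2 * (-(s⁻¹ : Fˣ) * -((-φu s)⁻¹ : Fˣ) * -((φu (φu s))⁻¹ : Fˣ))))
  rw [Cert.A_self, show ((b ^ (2 : ℤ) : Fˣ) : F) * (-(e ^ 2 * (-(s⁻¹ : Fˣ) * -((-φu s)⁻¹ : Fˣ) *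
      -((φu (φu s))⁻¹ : Fˣ)))) = c by
    have k1 : φ s ≠ 0 := by simp
    have k2 : φ (φ s) ≠ 0 := by simp
    have k3 : ((t : (φ : F →+* F).eqLocusField (RingHom.id F)) : F) ≠ 0 := by simp
    rw [he', ← hb]
    simp only [zpow_ofNat, Units.val_pow_eq_pow_val, Units.val_inv_eq_inv_val, Units.coe_map, MonoidHom.coe_coe,
      Subfield.coe_subtype, Units.val_neg]
    field_simp
    linear_combination - c * h2'] at h6
  rw [mul_inv_eq_iff_eq_mul.1 ht, ← h6, ← three_n _ s1 s2 s3]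
  calc _ = (SD).h (certD4.sp (ndD 1)) b * ((SD).x (rtD 23) e * ((SD).x (rtD 21).rev (-(s⁻¹ : Fˣ)) *
        (SD).x (rtD 17).rev (-((-φu s)⁻¹ : Fˣ)) * (SD).x (rtD 20).rev (-((φu (φu s))⁻¹ : Fˣ)))) *
        ((SD).x (rtD 21) s * (SD).x (rtD 17) (-φu s : Fˣ) * (SD).x (rtD 20) (φu (φu s))) := by
          simp only [Units.val_neg, Units.coe_map, MonoidHom.coe_coe]; group
    _ = _ := by erw [h3]; rw [show rtD 14 = certD4.sp (ndD 1) from rfl]; group

/-- the long root Levi factor of the triality group -/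
noncomputable def llD4 : LL (certD4.sys F) ((φ : F →+* F).eqLocusField (RingHom.id F)) where
  T := stbD4 φ
  K := KD
  bn := ⟨goodD4 hφ (frob3 hφ hF), fun i => by
    obtain ⟨t, ht⟩ := (lrD4 hφ hF).exists_cd_nm (ht_inv _) (r := certD4.sp i) (by rw [Cert.lev_empty, Cert.ht_sp]; omega)
      (c := 1) fun _ => map_one _
    exact ⟨_, ⟨(lrD4 hφ hF).nm_mem (fun r hr => And.intro (((stbD4 φ).pos r).2 hr.1)
      ((((stbD4 φ).stable_orb i).inJ r).2 hr.2)) (And.intro (certD4.pos_sp i) (certD4.inJ_sp.2 (Stb.mem_orb _ i))) t,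
      ((lrD4 hφ hF).nm _ t).2⟩, fun h => by rw [h, Sys.cd_one] at ht; exact zero_ne_one ht⟩⟩
  inj := certD4.sys_φ_inj F
  j := ndD 1
  πj := by change triD4.ν _ = _; decide +kernel
  two := by change ∀ i j, _ → _ → triD4.nodes.SameCycle i j; decide +kernel
  lng u := (lenD4_eq _ _).le
  w0 := w0D4
  ι := Subfield.subtype _
  mem_x := mem_fixD4 hφ hF (by decide +kernel)
  mem_y := mem_fixD4 hφ hF (by decide +kernel)
  lead r h h' := by
    obtain ⟨t, ht⟩ := (lrD4 hφ hF).exists_cd_nm (ht_inv _) (r := r) (by rw [Cert.lev_empty]; exact certD4.one_le_ht h)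
      (c := 1) fun _ => map_one _
    have hs : (stbD4 φ).Stable {ndD 1} := by
      change ∀ i, triD4.ν i = _ ↔ i = _
      decide +kernel
    exact ⟨_, ((lrD4 hφ hF).nm r t).2, (lrD4 hφ hF).nm_mem (fun r hr => And.intro (((stbD4 φ).pos r).2 hr.1)
      (mt (hs.inJ r).1 hr.2)) (And.intro h h') t, (lrD4 hφ hF).nm_mem (fun s hs => by
        rwa [Set.mem_ofPred_eq, ht_inv]) (certD4.lev_empty r).ge t, ht ▸ one_ne_zero⟩
  θ := rtD 23
  hθ := by rw [Cert.A_def]; decide +kernel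
  θK t := mul_mem (n_mem_of_fix (goodD4 hφ (frob3 hφ hF)) (by rw [Cert.pos_iff_val]; decide +kernel)
    (by change triD4.ρ _ = _; decide +kernel) ((lrD4 hφ hF).e_eq _ (by change triD4.ρ _ = _; decide +kernel)) t.1.2)
    (n_mem_of_fix (goodD4 hφ (frob3 hφ hF)) (by rw [Cert.pos_iff_val]; decide +kernel)
      (by change triD4.ρ _ = _; decide +kernel) ((lrD4 hφ hF).e_eq _ (by change triD4.ρ _ = _; decide +kernel))
      (by simp))
  n := _
  nK := nD4 hφ hF 1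
  n_over := w0D4_ss ▸ three_over _ _ _ _ _ _ _
  n_x t := (((SO.n_x _ (by decide +kernel) _ _).1.mul_left (SO.n_x _ (by decide +kernel) _ _).1).mul_left
    (SO.n_x _ (by decide +kernel) _ _).1).eq
  n_y t := (((SO.n_x _ (by decide +kernel) _ _).2.mul_left (SO.n_x _ (by decide +kernel) _ _).2).mul_left
    (SO.n_x _ (by decide +kernel) _ _).2).eq
  r1 i hi m := r1D4 hφ hF hi
  sp h2 m := spD4' hφ hF h2

theorem coverD4 (hq : 1 < q) (p : ℕ) [Fact p.Prime] [CharP F p] :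
    ∃ x : KD, ¬ p ∣ orderOf x ∧ ∀ g : KD, g ≠ 1 → ∃ u v : KD, g = u * x * u⁻¹ * (v * x * v⁻¹) := by
  have : Finite (chevD4.group F) := Finite.of_injective _ (certD4.sys_φ_inj F)
  have : Finite (llD4 hφ hF).K := inferInstanceAs (Finite KD)
  have h3 := frob3 hφ hF
  by_cases h2 : (2 : kD) = 0
  swap
  · refine (llD4 hφ hF).cover_odd p ?_ ?_ h2 <;>
    · change ∀ s, certD4.A (certD4.sp (ndD 1)) s = _ → _
      simp only [show (llD4 hφ hF).θ = rtD 23 from rfl, Cert.A_def]; decide +kernel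
  have h2' : (2 : F) = 0 := congrArg Subtype.val h2
  obtain ⟨u, hu⟩ : ∃ u, φ u ≠ u := by
    by_contra h
    push Not at h
    have h4 := card_fixed' hφ hF
    rw [Nat.card_congr (Equiv.subtypeUnivEquiv h), hF] at h4
    exact absurd h4 (Nat.pow_lt_pow_right hq (show 1 < 3 by omega) |>.trans_le' (pow_one q).ge).ne'
  obtain ⟨s, hs, hs'⟩ : ∃ s : Fˣ, φ s ≠ s ∧ s * φu s * φu (φu s) = 1 := by
    have k : ∀ w, φ w ≠ w → φ w ^ 2 ≠ w * φ (φ w) → ∃ s : Fˣ, φ s ≠ s ∧ s * φu s * φu (φu s) = 1 := fun w h h' => by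
      have h0 : w ≠ 0 := by rintro rfl; simp at h
      have k1 : φ w ≠ 0 := by simpa
      have k2 : φ (φ w) ≠ 0 := by simpa
      refine ⟨Units.mk0 (w / φ w) (div_ne_zero h0 k1), fun e => h' ?_, Units.ext ?_⟩
      · simp only [Units.val_mk0, map_div₀] at e
        field_simp at e
        linear_combination e
      · simp only [Units.val_mul, Units.coe_map, MonoidHom.coe_coe, Units.val_mk0, map_div₀, h3, Units.val_one]
        field_simp
    by_cases h : φ u ^ 2 = u * φ (φ u)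
    · refine k (u + 1) (by simpa) fun e => hu ?_
      simp only [map_add, map_one] at e
      have : φ (φ u) = u := by linear_combination h - e + (φ u - u) * h2'
      exact (congrArg φ this).symm.trans (h3 u)
    · exact k u hu h
  have s1 : SO chevD4 (rtD 21) (rtD 17) := by decide +kernel
  have s2 : SO chevD4 (rtD 21) (rtD 20) := by decide +kernel
  have s3 : SO chevD4 (rtD 17) (rtD 20) := by decide +kernel
  have hn : ∀ t : Fˣ, -t = t := fun t => Units.ext (by rw [Units.val_neg]; linear_combination -t * h2')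
  have n1 := nD4 hφ hF 1
  have n2 := nD4 hφ hF s
  rw [hn] at n1 n2
  simp only [map_one] at n1
  have o1 := three_over (SD) (rtD 21) (rtD 17) (rtD 20) 1 1 1
  have hz := o1.mul_inv_mem_H (three_over (SD) _ _ _ s (φu s) (φu (φu s)))
  have e := three_chi _ s1 s2 s3 (certD4.sys_φ_inj F) o1 s (φu s) (φu (φu s))
  simp only [mul_inv_cancel, Sys.chi_one, one_mul] at e
  have hK := mul_mem n1 (inv_mem n2)
  generalize _ * (_ : chevD4.group F)⁻¹ = z at hz e hK
  have k1 : ∀ v, certD4.A (certD4.sp (ndD 1)) v = 0 ∨ certD4.A (certD4.sp (ndD 1)) v = -1 →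
      (certD4.A (certD4.sp (ndD 1)) v = -1 ∧ (SD).chi z v = 1) ∨ φ ((SD).chi z v) ≠ (SD).chi z v := fun v hv => by
    obtain ⟨m, -, n, hn, h⟩ : ∃ m ∈ [(-1 : ℤ), 0, 1], ∃ n ∈ [(-2 : ℤ), 0, 2], (n = 0 → certD4.A (certD4.sp (ndD 1)) v = -1) ∧
        (certD4.A (rtD 21) v = m + n ∧ certD4.A (rtD 17) v = m ∧ certD4.A (rtD 20) v = m ∨
          certD4.A (rtD 21) v = m ∧ certD4.A (rtD 17) v = m + n ∧ certD4.A (rtD 20) v = m ∨
          certD4.A (rtD 21) v = m ∧ certD4.A (rtD 17) v = m ∧ certD4.A (rtD 20) v = m + n) := by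
      revert v; simp only [Cert.A_def]; decide +kernel
    obtain ⟨t, ht, e'⟩ : ∃ t : Fˣ, φ t ≠ t ∧ (SD).chi z v = (t ^ n)⁻¹ := by
      have := congrArg (· ^ m) hs'
      simp only [mul_zpow, one_zpow] at this
      rcases h.2 with ⟨a, b, c⟩ | ⟨a, b, c⟩ | ⟨a, b, c⟩ <;> rw [e, a, b, c, zpow_add]
      · exact ⟨s, hs, congrArg _ (by rw [mul_right_comm _ (s ^ n), mul_right_comm _ (s ^ n), this, one_mul])⟩
      · exact ⟨φu s, φ.injective.ne hs, congrArg _ (by rw [← mul_assoc, mul_right_comm, this, one_mul])⟩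
      · exact ⟨φu (φu s), φ.injective.ne (φ.injective.ne hs), congrArg _ (by rw [← mul_assoc, this, one_mul])⟩
    have k : φ (t ^ 2) ≠ t ^ 2 := fun e => ht (by
      rw [map_pow] at e
      exact sub_eq_zero.1 (pow_eq_zero_iff two_ne_zero |>.1 (by linear_combination e + (t ^ 2 - t * φ t) * h2')))
    rw [e']
    simp only [List.mem_cons, List.not_mem_nil, or_false] at hn
    rcases hn with rfl | rfl | rfl
    · exact Or.inr (by simpa [zpow_ofNat] using k)
    · exact Or.inl ⟨h.1 rfl, by simp⟩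
    · exact Or.inr (by simpa [zpow_ofNat] using k)
  have hτ : (llD4 hφ hF).τ 1 * z = z := by rw [LL.τ, map_one, Sys.h_one, one_mul]
  refine (llD4 hφ hF).cover p hK hz ?_ 1 1 (fun h => one_ne_zero (α := kD) ?_) (fun v _ hv h => ?_) (fun v hv h => ?_)
    fun M hM => Or.inl (fac_even h2 (Units.ne_zero _) _ (hM h2))
  · change (SD).chi z (rtD 14) = 1
    rw [e, show certD4.A (rtD 21) (rtD 14) = 0 by rw [Cert.A_def]; decide +kernel,
      show certD4.A (rtD 17) (rtD 14) = 0 by rw [Cert.A_def]; decide +kernel,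
      show certD4.A (rtD 20) (rtD 14) = 0 by rw [Cert.A_def]; decide +kernel]
    simp
  · rw [Units.val_one] at h; linear_combination h - 2 * h2
  · rw [hτ] at h
    rcases k1 v (Or.inl hv) with ⟨h', -⟩ | h'
    · exact absurd (hv.symm.trans h') (by decide)
    · exact h' (by rw [h]; simp)
  · rw [hτ, Units.val_one, map_one, mul_one, one_mul] at h
    rcases k1 v (Or.inr hv) with ⟨-, h'⟩ | h'
    · rw [h'] at h; simp at h
    · generalize ((SD).chi z v : F) = a at h h'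
      have h4 := congrArg φ h
      simp only [map_mul, map_sub, map_one] at h4
      have h5 : φ a = a + 1 := by
        refine (mul_eq_zero.1 (?_ : (φ a - a) * (φ a - (a + 1)) = 0)).elim (fun e => absurd (sub_eq_zero.1 e) h')
          sub_eq_zero.1
        linear_combination h4 + h + (φ a - φ a * a + 2 * a - 1) * h2'
      have := h3 a
      simp only [h5, map_add, map_one] at this
      exact one_ne_zero (α := F) (by linear_combination this - h2')

end D4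

end Cfsg.Agent.Chev
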